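import Cfsg.Agent.H3.JBase
import Cfsg.Agent.FT.Main
import Cfsg.Agent.H5.WielFrob
import Cfsg.Agent.L.Zass4

/-! S3403, piece (A6): the case where all maximal lines have type `A`. -/

set_option autoImplicit false

namespace CfsgJ

open CfsgH5 CfsgH6 CfsgFT Subgroup

universe u

namespace A6

theorem exists_rho {H A : Type*} [Group H] [Group A] [Finite A] [Group.IsSolvable A] (f : H →* A)
    {g : H} (hg : f g ≠ 1) : ∃ ρ : H →* ℂˣ, ρ ≠ 1 ∧ ∀ t, f t = 1 → ρ t = 1 := by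
  have : Nontrivial f.range := ⟨⟨⟨f g, g, rfl⟩, 1, fun e => hg (congrArg Subtype.val e)⟩⟩
  obtain ⟨r, -, hr⟩ := SetLike.exists_of_lt
    (Group.IsSolvable.commutator_lt_top_of_nontrivial f.range)
  obtain ⟨χ, hχ⟩ := CommGroup.exists_apply_ne_one_of_hasEnoughRootsOfUnity
    (Abelianization f.range) ℂ (a := Abelianization.of r) fun e =>
      hr (by rw [← Abelianization.ker_of]; exact e)
  obtain ⟨y, rfl⟩ := f.rangeRestrict_surjective r
  refine ⟨χ.comp (Abelianization.of.comp f.rangeRestrict), fun e => hχ (DFunLike.congr_fun e y),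
    fun t ht => ?_⟩
  rw [MonoidHom.comp_apply, MonoidHom.comp_apply, show f.rangeRestrict t = 1 from Subtype.ext ht,
    map_one, map_one]

theorem rho_of_sup {H : Type*} [Group H] [Finite H] (F W : Subgroup H) [F.Normal]
    [Group.IsSolvable W] (h : W ⊔ F = ⊤) {w : H} (hw : w ∉ F) :
    ∃ ρ : H →* ℂˣ, ρ ≠ 1 ∧ ∀ t ∈ F, ρ t = 1 := by
  have : Group.IsSolvable (H ⧸ F) := Group.isSolvable_of_surjective
    (f := (QuotientGroup.mk' F).comp W.subtype) fun q => by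
      obtain ⟨g, rfl⟩ := QuotientGroup.mk_surjective q
      obtain ⟨a, ha, b, hb, rfl⟩ := mem_sup_of_normal_right.1 (h ▸ mem_top g)
      exact ⟨⟨a, ha⟩, (QuotientGroup.mk_mul_of_mem a hb).symm⟩
  obtain ⟨ρ, h1, h2⟩ := exists_rho (QuotientGroup.mk' F) (g := w)
    fun e => hw ((QuotientGroup.eq_one_iff w).1 e)
  exact ⟨ρ, h1, fun t ht => h2 t ((QuotientGroup.eq_one_iff t).2 ht)⟩

theorem zm5 : ∀ a b : ZMod 11, a ^ 5 = 1 → a ≠ 1 → b ^ 5 = 1 → ∃ k : Fin 5, b = a ^ k.1 := by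
  decide

end A6

open A6

variable {G Ω : Type u} [Group G] [Finite G] [MulAction G Ω] [Finite Ω] {P : Ω → Subgroup G}
  {L M : Subgroup G} {i j : Ω} {t : G}

omit [Finite G] [Finite Ω] in
theorem SA.a6_notC (h : SA G Ω P) (hL : ML P L) (hi : P i ≤ L) (htL : t ∈ L)
    (ht : orderOf t = 5) : t ∉ C (P i) := fun c => by
  have := orderOf_dvd_of_pow_eq_one (h.pow11 ((h.fa L hL).cen i hi ▸ ⟨htL, c⟩ : t ∈ P i))
  rw [ht] at this
  norm_num at this

theorem SA.a6_rho (h : SA G Ω P) (hI : Inv P) (ch : CHSt.{u}) (hL : ML P L) (hij : i ≠ j)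
    (hi : P i ≤ L) (hj : P j ≤ L) (htL : t ∈ L) (ht : orderOf t = 5) (hti : t • i = i)
    (hT : ∀ g ∈ L, g • i = i → g • j = j → g ∈ zpowers t)
    (ρ : MulAction.stabilizer G i →* ℂˣ) (h1 : ρ ≠ 1) (h2 : ρ ⟨t, hti⟩ = 1) : False := by
  have A := h.fa L hL
  have := h.simple
  obtain ⟨-, -, -, -, -, -, s, hsL, hs, -, -⟩ := A.tor i j hij hi hj
  obtain ⟨x, x1, -, x2⟩ := h.exP i
  have hx : x ∈ P i := x2 ▸ mem_zpowers x
  have hy : t * x * t⁻¹ * x⁻¹ ∈ P i :=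
    mul_mem (conj_mem_of_mem_N (h.fix_iff.1 hti) hx) (inv_mem hx)
  have hy1 : t * x * t⁻¹ * x⁻¹ ≠ 1 := fun e => h.a6_notC hL hi htL ht (by
    rw [x2, C_zpowers, mem_C1_iff_conj]; exact mul_inv_eq_one.1 e)
  have key : ∀ v, IsConj s v → v • i = j → v ∈ L ∧ v • j = i := fun v hv v1 => by
    obtain ⟨c, hc⟩ := isConj_iff.1 hv
    have v2 : v * v = 1 := by rw [← hc, ← pow_two, conj_pow, ← hs, pow_orderOf_eq_one]; simp
    have v3 : v • j = i := by rw [← v1, ← mul_smul, v2, one_smul]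
    have v4 : ∀ k : Ω, v • k ≠ k := fun k e => (hI L hL s hsL hs).1 (c⁻¹ • k) (by
      rw [← mul_smul, eq_inv_smul_iff, ← mul_smul, ← mul_assoc, hc, e])
    obtain ⟨m, hm, w, hw, rfl⟩ := A.out v (h.mem_N hL hij hi hj (by rwa [v1]) (by rwa [v3])) v2
      fun k _ => v4 k
    have cm : Commute m w := mem_C.1 hw m hm
    have e1 : m * m * (w * w) = 1 := by rw [← v2]; exact (cm.symm.mul_mul_mul_comm m w).symm
    have e2 : m * m = 1 := h.inf_C hL.1 A.cen (mul_mem hm hm) (by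
      rw [eq_inv_of_mul_eq_one_left e1]; exact inv_mem (mul_mem hw hw))
    rw [e2, one_mul] at e1
    have e3 : w = 1 := by
      by_contra c
      have m1 : m ≠ 1 := fun e => hij (by rw [← v1, e, one_mul, h.fix_W hw hi])
      obtain ⟨-, k, hk⟩ := (hI L hL m hm (orderOf_eq_prime (by rwa [pow_two]) m1)).2 w hw
        (orderOf_eq_prime (by rwa [pow_two]) c)
      exact v4 k hk
    exact ⟨by rwa [e3, mul_one], v3⟩
  refine ch G Ω i j s _ ρ (h.fix_P hy) h.perf h.tr (fun a b ha hb => ?_) hij hs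
    (hI L hL s hsL hs).1 h1 (fun v w hv hw v1 w1 e => ?_) (h.order hy hy1)
    (fun k => h.semireg hy hy1) ?_ ?_
  · obtain ⟨g, g1, g2⟩ := h.ktr2 i a b ha hb
    exact ⟨g, h.fix_C g1, g2⟩
  · obtain ⟨k, hk⟩ := hT _ (mul_mem (key v hv v1).1 (key w hw w1).1) e
      (by rw [mul_smul, (key w hw w1).2, v1])
    rw [show (⟨v * w, e⟩ : MulAction.stabilizer G i) = ⟨t, hti⟩ ^ k from Subtype.ext hk.symm,
      map_zpow, h2, one_zpow]
  · let T : MulAction.stabilizer G i := ⟨t, hti⟩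
    let X : MulAction.stabilizer G i := ⟨x, h.fix_P hx⟩
    change ρ (T * X * T⁻¹ * X⁻¹) = 1
    simp only [map_mul, map_inv, mul_inv_cancel_comm, mul_inv_cancel]
  · obtain ⟨φ, -, f2⟩ := h.aut i
    have : MulAction.IsPretransitive G Ω := ⟨h.tr⟩
    have := Fact.mk (by norm_num : Nat.Prime 11)
    have e1 : (C (P i)).relIndex (MulAction.stabilizer G i) ∣ 10 := by
      rw [relIndex, show (C (P i)).subgroupOf _ = φ.ker from ext fun g => (f2 g).symm, index_ker]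
      exact (card_subgroup_dvd_card _).trans (by rw [Nat.card_eq_fintype_card, ZMod.card_units])
    rw [← C_zpowers, ← h.eq_zpowers hy hy1, ← relIndex_mul_index
      (show C (P i) ≤ MulAction.stabilizer G i from fun g hg => h.fix_C hg),
      MulAction.index_stabilizer_of_transitive]
    obtain ⟨a, ha⟩ := h.even
    have := h.m5
    have := h.big
    refine Nat.Coprime.mul_right (Nat.Coprime.coprime_dvd_right e1 ?_) ?_
    · rw [Nat.Coprime, Nat.gcd_comm, Nat.gcd_rec, show (Nat.card Ω - 1) % 10 = 1 by omega]; rfl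
    · exact (Nat.coprime_self_sub_left (by omega)).2 (Nat.coprime_one_left _)

theorem SA.a6_five (h : SA G Ω P) (hI : Inv P) (ch : CHSt.{u}) {g : G} (hg : g • i = i) :
    g ^ 5 ∈ C (P i) := by
  by_contra c
  obtain ⟨φ, -, f2⟩ := h.aut i
  obtain ⟨a, b, hab⟩ := h.two
  obtain ⟨j, hij⟩ : ∃ j, i ≠ j := by
    by_cases e : i = a
    exacts [⟨b, e ▸ hab⟩, ⟨a, e⟩]
  obtain ⟨L, hL, hi, hj⟩ := h.ex i j hij
  obtain ⟨t, htL, ht, hti, -, hT, -⟩ := (h.fa L hL).tor i j hij hi hj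
  obtain ⟨ρ, h1, h2⟩ := exists_rho ((powMonoidHom 5).comp φ) (g := ⟨g, hg⟩) fun e =>
    c ((f2 (⟨g, hg⟩ ^ 5)).1 (by rw [map_pow]; exact e))
  refine h.a6_rho hI ch hL hij hi hj htL ht hti hT ρ h1 (h2 _ ?_)
  rw [MonoidHom.comp_apply, powMonoidHom_apply, ← map_pow, ← map_one φ]
  exact congrArg φ (Subtype.ext (by rw [← ht]; exact pow_orderOf_eq_one t))

theorem SA.a6_dec (h : SA G Ω P) (hI : Inv P) (ch : CHSt.{u}) (hti : t • i = i)
    (hc : t ∉ C (P i)) {g : G} (hg : g • i = i) : ∃ e : ℕ, ∃ k ∈ C (P i), g = k * t ^ e := by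
  obtain ⟨φ, -, f2⟩ := h.aut i
  have p5 : ∀ a : MulAction.stabilizer G i, (φ a : ZMod 11) ^ 5 = 1 := fun a => by
    rw [← Units.val_pow_eq_pow_val, ← map_pow, (f2 (a ^ 5)).2 (h.a6_five hI ch a.2), Units.val_one]
  obtain ⟨k, hk⟩ := zm5 (φ ⟨t, hti⟩) (φ ⟨g, hg⟩) (p5 _)
    (fun e => hc ((f2 ⟨t, hti⟩).1 (Units.ext e))) (p5 _)
  refine ⟨k, _, (f2 (⟨g, hg⟩ * (⟨t, hti⟩ ^ k.1)⁻¹)).1 ?_, by simp⟩
  rw [map_mul, map_inv, mul_inv_eq_one, map_pow]
  exact Units.ext hk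

theorem SA.a6_zass (h : SA G Ω P) (hI : Inv P) (ch : CHSt.{u}) (hL : ML P L) : C L ≠ ⊥ := by
  intro hW
  have := h.simple
  have := Fact.mk Nat.prime_five
  have key : ∀ a b : Ω, a ≠ b → ∃ M t, ML P M ∧ P a ≤ M ∧ P b ≤ M ∧ t ∈ M ∧ orderOf t = 5 ∧
      CfsgH3.st2 G a b = zpowers t := fun a b hab => by
    obtain ⟨M, hM, ha, hb⟩ := h.ex a b hab
    obtain ⟨t, htM, ht, t1, t2, -⟩ := (h.fa M hM).tor a b hab ha hb
    refine ⟨M, t, hM, ha, hb, htM, ht, le_antisymm (fun g hg => ?_) (zpowers_le.2 ⟨t1, t2⟩)⟩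
    obtain ⟨e, k, hk, rfl⟩ := h.a6_dec hI ch t1 (h.a6_notC hM ha htM ht) hg.1
    have k1 := h.star M hM a b hab ha hb k hk (by
      have : (k * t ^ e) • b = b := hg.2
      rwa [mul_smul,
        show t ^ e • b = b from pow_mem (show t ∈ MulAction.stabilizer G b from t2) e] at this)
    obtain ⟨c, rfl⟩ := h.conj hL hM
    rw [← cj_C, hW, cj_bot, mem_bot] at k1
    rw [k1, one_mul]
    exact npow_mem_zpowers t e
  obtain ⟨i, j, hij⟩ := h.two
  obtain ⟨M, t, hM, hi, hj, htM, ht, e⟩ := key i j hij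
  have t1 : t ≠ 1 := fun e => by simp [e] at ht
  have t2 : t ∈ CfsgH3.st2 G i j := e ▸ mem_zpowers t
  have hZ : Cfsg.IsZassenhausGroup G Ω := by
    refine ⟨⟨fun {a b} e => inv_mul_eq_one.1 (h.faithful fun k => by
      rw [mul_smul, ← e, inv_smul_smul])⟩, MulAction.is_two_pretransitive_iff.2 ?_, ?_,
      ⟨t, t1, i, j, hij, t2⟩, fun X hX tr => ⟨i, fun c => ?_⟩⟩
    · intro a b c d hab hcd
      obtain ⟨g, rfl⟩ := h.tr a c
      obtain ⟨k, k1, k2⟩ := h.ktr2 (g • a) (g • b) d (fun e => hab (smul_left_cancel g e).symm)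
        hcd.symm
      exact ⟨k * g, by rw [mul_smul, h.fix_C k1], by rw [mul_smul, k2]⟩
    · intro g a b c hab hbc hac ga gb gc
      by_contra g1
      obtain ⟨M, t, hM, ha, hb, htM, ht, e⟩ := key a b hab
      have g2 : g ∈ zpowers t := e ▸ ⟨ga, gb⟩
      have g3 : g ∈ M := zpowers_le.2 htM g2
      have g4 : orderOf g = 5 := orderOf_eq_prime
        (orderOf_dvd_iff_pow_eq_one.1 (ht ▸ orderOf_dvd_of_mem_zpowers g2)) g1
      have g5 := h.a6_notC hM ha g3 g4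
      exact hbc (((h.fa M hM).fix2 g (le_N _ g3) a ha ga g5).unique ⟨hb, hab.symm, gb⟩
        ⟨h.fix5 hM g4 ha ga g5 (le_N _ g3) gc, hac.symm, gc⟩)
    · rcases hX.eq_bot_or_eq_top with rfl | rfl
      · obtain ⟨⟨g, hg⟩, e⟩ := tr.1 i j
        obtain rfl := mem_bot.1 hg
        exact hij ((one_smul G i).symm.trans e)
      · have : (⟨t, trivial⟩ : (⊤ : Subgroup G)) ∈ MulAction.stabilizer (⊤ : Subgroup G) i := t2.1
        rw [c, mem_bot] at this
        exact t1 (congrArg Subtype.val this)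
  have := h.big
  rcases CfsgL.zass_cases hZ hij with c | ⟨c1, c2⟩ <;> rw [e, Nat.card_zpowers, ht] at *
  · omega
  · obtain ⟨n, hn⟩ := c1.exists_card_eq
    have : 3 ∣ 2 := Nat.prime_three.dvd_of_dvd_pow (n := n) (by rw [← hn, c2]; norm_num)
    omega

theorem SA.elim (h : SA G Ω P) (hI : Inv P) (ch : CHSt.{u}) (cf : CFSt.{u}) : False := by
  have := Fact.mk Nat.prime_five
  obtain ⟨i, j, hij⟩ := h.two
  obtain ⟨L, hL, hi, hj⟩ := h.ex i j hij
  obtain ⟨t, htL, ht, hti, -, hT, s, hsL, hs, -⟩ := (h.fa L hL).tor i j hij hi hj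
  have tC := h.a6_notC hL hi htL ht
  suffices ∃ ρ : MulAction.stabilizer G i →* ℂˣ, ρ ≠ 1 ∧ ρ ⟨t, hti⟩ = 1 by
    obtain ⟨ρ, h1, h2⟩ := this
    exact h.a6_rho hI ch hL hij hi hj htL ht hti hT ρ h1 h2
  have ev : ¬ Odd (Nat.card (C L)) → Nat.card Ω = 672 := fun c => by
    obtain ⟨w, hw⟩ := exists_prime_orderOf_dvd_card' 2 (Nat.not_odd_iff_even.1 c).two_dvd
    exact ((hI L hL s hsL hs).2 w w.2 (by rwa [orderOf_coe])).1
  set H := MulAction.stabilizer G i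
  have KH : C (P i) ≤ H := fun g hg => h.fix_C hg
  have WH : C L ≤ H := fun g hg => h.fix_W hg hi
  by_cases tv : ∃ M, ML P M ∧ L ≠ M ∧ P i ≤ M ∧ ∃ w ∈ C L, w ≠ 1 ∧ w ∈ N M
  · obtain ⟨M, hM, hne, hi', w, hw, w1, w2⟩ := tv
    obtain ⟨a1, a2, a3⟩ := h.tv L M hL hM hne i hi hi' w hw w1 w2
    obtain ⟨φ, -, f2⟩ := h.aut i
    have ek : (C (P i)).subgroupOf H = φ.ker := ext fun g => (f2 g).symm
    have ix : φ.ker.index = 5 := by
      rw [index_ker, show φ.range = zpowers (φ ⟨t, hti⟩) from le_antisymm ?_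
        (zpowers_le.2 ⟨_, rfl⟩), Nat.card_zpowers]
      · refine orderOf_eq_prime ?_ fun e => tC ((f2 _).1 e)
        rw [← map_pow, ← map_one φ]
        exact congrArg φ (Subtype.ext (by rw [← ht]; exact pow_orderOf_eq_one t))
      · rintro _ ⟨g, rfl⟩
        obtain ⟨e, k, hk, e1⟩ := h.a6_dec hI ch hti tC g.2
        rw [show g = ⟨k, KH hk⟩ * ⟨t, hti⟩ ^ e from Subtype.ext e1, map_mul,
          (f2 ⟨k, KH hk⟩).2 hk, one_mul, map_pow]
        exact npow_mem_zpowers _ e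
    have od : Odd (Nat.card (C L)) := by
      by_contra c
      rw [ev c] at a3
      norm_num at a3
    refine cf H φ.ker ⟨t, hti⟩ ⟨w, WH hw⟩ ?_ ix (by rwa [← orderOf_coe]) (fun c => tC ((f2 _).1 c))
      ((f2 _).2 (C_anti hi hw)) (by rwa [← orderOf_coe]) (Subtype.ext (mem_C.1 hw t htL).symm) ?_
    · rw [← card_mul_index φ.ker, ix, ← ek, Nat.card_congr (subgroupOfEquivOfLe KH).toEquiv,
        h.cardK L hL]
      exact ((Nat.Even.sub_odd (by have := h.big; omega) h.even odd_one).mul od).mul (by decide)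
    · refine le_trans (Nat.card_le_card_of_injective (fun g => (⟨g.1.1, (f2 _).1 g.2.1,
        mem_C1.2 (congrArg Subtype.val (mem_C1.1 g.2.2))⟩ : ↥(C (P i) ⊓ C1 w))) ?_) a2
      exact fun a b e => Subtype.ext (Subtype.ext (Subtype.mk.inj e))
  have ntv : ∀ M, ML P M → P i ≤ M → ∀ w ∈ C L, w ∈ N M → L = M ∨ w = 1 := fun M hM hi' w hw w2 => by
    by_contra c
    rw [not_or] at c
    exact tv ⟨M, hM, c.1, hi', w, hw, c.2, w2⟩
  have cjM : ∀ g ∈ H, ML P (cj g⁻¹ L) ∧ P i ≤ cj g⁻¹ L := fun g hg => ⟨h.ml_cj hL _, by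
    rw [← show g⁻¹ • i = i from inv_mem hg]; exact h.on_smul.2 hi⟩
  have cjN : ∀ g a : G, g * a * g⁻¹ ∈ N L → a ∈ N (cj g⁻¹ L) := fun g a e => by
    rw [← cj_N, mem_cj, inv_inv]; exact e
  obtain ⟨F, F1, F2⟩ := WF.wielandt (H := H ⊓ N L) (T := H ⊓ L) (X := H)
    (inf_le_inf_left _ (le_N L))
    (fun a ha b hb => ⟨H.mul_mem (H.mul_mem ha.1 hb.1) (H.inv_mem ha.1), conj_mem_of_mem_N ha.2 hb.2⟩)
    inf_le_left fun a ha a1 g hg e => by
      refine mem_inf.2 ⟨hg, inv_mem_iff.1 (mem_N.2 (Eq.symm ?_))⟩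
      obtain ⟨hM, hi'⟩ := cjM g hg
      have aM := cjN g a e.2
      by_contra c
      have dec : ∀ k ∈ C (P i), k ∈ N L → k ∈ N (cj g⁻¹ L) → k ∈ P i := fun k k1 k2 k3 => by
        obtain ⟨p, hp, w, hw, rfl⟩ := h.b L hL i hi k k1 k2
        rwa [(ntv _ hM hi' w hw ((mul_mem_cancel_left (le_N _ (hi' hp))).1 k3)).resolve_left c,
          mul_one]
      have a2 : a ∉ C (P i) := fun k => a1 ⟨ha.1, hi (dec a k ha.2 aM)⟩
      have a3 := h.pow11 (dec _ (h.a6_five hI ch ha.1) (pow_mem ha.2 5) (pow_mem aM 5))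
      have a4 : a ^ 11 ∉ C (P i) := fun k => a2 (by
        rwa [pow_succ, mul_mem_cancel_left (h.pow10 ha.1)] at k)
      exact c (h.t1 (a ^ 11) (orderOf_eq_prime (by rwa [← pow_mul, mul_comm, pow_mul])
        fun e => a4 (e ▸ one_mem _)) i (pow_mem ha.1 11) a4 _ _ hL hM hi hi' (pow_mem ha.2 11)
        (pow_mem aM 11))
  have FH : F ≤ H := fun x hx => ((F1 x).1 hx).1
  have Fn : ∀ g ∈ H, ∀ x ∈ F, g * x * g⁻¹ ∈ F := fun g hg x hx => (F1 _).2
    ⟨mul_mem (mul_mem hg (FH hx)) (inv_mem hg), fun a ha e => by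
      have := ((F1 x).1 hx).2 (a * g) (mul_mem ha hg)
      simp only [mul_inv_rev, mul_assoc] at this e ⊢
      exact this e⟩
  have tF : t ∈ F := (F1 t).2 ⟨hti, fun g hg e => ⟨e.1, by
    obtain ⟨hM, hi'⟩ := cjM g hg
    rw [h.t1 t ht i hti tC _ _ hL hM hi hi' (le_N _ htL) (cjN g t e.2), mem_cj, inv_inv] at htL
    exact htL⟩⟩
  have PF : P i ≤ F := by
    obtain ⟨x, x1, -, x2⟩ := h.exP i
    have hx : x ∈ P i := x2 ▸ mem_zpowers x
    rw [h.eq_zpowers (mul_mem (conj_mem_of_mem_N (h.fix_iff.1 hti) hx) (inv_mem hx))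
      fun e => tC (by rw [x2, C_zpowers, mem_C1_iff_conj]; exact mul_inv_eq_one.1 e), zpowers_le]
    simpa only [mul_assoc] using mul_mem tF (Fn x (h.fix_P hx) _ (inv_mem tF))
  have : (F.subgroupOf H).Normal := ⟨fun x hx g => Fn g g.2 x hx⟩
  have : Group.IsSolvable (C L) := by
    by_cases c : Odd (Nat.card (C L))
    · exact feit_thompson _ c
    · have := h.w61 (ev c) L hL
      exact Group.isSolvable_of_comm IsCyclic.commGroup.mul_comm
  have : Group.IsSolvable ((C L).subgroupOf H) :=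
    Group.isSolvable_of_isSolvable_injective (f := (subgroupOfEquivOfLe WH).toMonoidHom)
      (subgroupOfEquivOfLe WH).injective
  obtain ⟨⟨w, hw⟩, w1⟩ := (C L).ne_bot_iff_exists_ne_one.1 (h.a6_zass hI ch hL)
  obtain ⟨ρ, h1, h2⟩ := rho_of_sup (F.subgroupOf H) ((C L).subgroupOf H) (w := ⟨w, WH hw⟩) (by
    rw [← subgroupOf_sup WH FH, subgroupOf_eq_top, ← F2]
    refine sup_le le_sup_right fun a ha => ?_
    obtain ⟨e, k, hk, rfl⟩ := h.a6_dec hI ch hti tC ha.1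
    obtain ⟨p, hp, c, hc, rfl⟩ := h.b L hL i hi k hk
      ((mul_mem_cancel_right (pow_mem (le_N _ htL) e)).1 ha.2)
    exact mul_mem (mul_mem (mem_sup_right (PF hp)) (mem_sup_left hc))
      (mem_sup_right (pow_mem tF e))) fun c => w1 (Subtype.ext (h.inf_C hL.1 (h.fa L hL).cen (by
        simpa using (((F1 w).1 c).2 1 (one_mem _) (by simpa using ⟨WH hw, C_le_N _ hw⟩)).2) hw))
  exact ⟨ρ, h1, h2 _ tF⟩

end CfsgJ
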