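import Cfsg.Agent.H3.JDef
import Cfsg.Agent.H3.ZassChar
import Cfsg.Agent.H6.Derang

/-! S3403, Lemma (CH): the character argument for a doubly transitive group. -/

set_option autoImplicit false

namespace CfsgJ.CH

open Cfsg CfsgL CfsgH3 CfsgH6 MulAction Finset
open scoped ComplexConjugate

universe u

theorem lens {m : ℂ} {N d e : ℝ} (hd0 : 0 ≤ d) (he0 : 0 ≤ e) (hd : d < N) (he : e < N)
    (h1 : ‖(d : ℂ) - N * m‖ ≤ d) (h2 : ‖(e : ℂ) - N * (1 - m)‖ ≤ e) : ‖m * (1 - m)‖ < 1 := by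
  have hN : 0 < N := hd0.trans_lt hd
  have a1 := pow_le_pow_left₀ (norm_nonneg _) h1 2
  have a2 := pow_le_pow_left₀ (norm_nonneg _) h2 2
  rw [← pow_lt_one_iff_of_nonneg (norm_nonneg _) two_ne_zero, norm_mul, mul_pow]
  simp only [Complex.sq_norm, Complex.normSq_apply] at a1 a2 ⊢
  simp only [Complex.sub_re, Complex.sub_im, Complex.mul_re, Complex.mul_im, Complex.ofReal_re,
    Complex.ofReal_im, Complex.one_re, Complex.one_im, zero_mul, sub_zero, add_zero,
    zero_sub] at a1 a2 ⊢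
  generalize m.re = x at *
  generalize m.im = y at *
  have b1 : N * (x * x + y * y) ≤ 2 * d * x := le_of_mul_le_mul_left (by nlinarith) hN
  have b2 : N * ((1 - x) * (1 - x) + y * y) ≤ 2 * e * (1 - x) :=
    le_of_mul_le_mul_left (by nlinarith) hN
  have c1 : 0 ≤ x := by
    by_contra c
    have := mul_pos hN (add_pos_of_pos_of_nonneg (mul_pos_of_neg_of_neg (not_le.1 c) (not_le.1 c))
      (mul_self_nonneg y))
    nlinarith [not_le.1 c]
  have c2 : 0 ≤ 1 - x := by
    by_contra c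
    have := mul_pos hN (add_pos_of_pos_of_nonneg (mul_pos_of_neg_of_neg (not_le.1 c) (not_le.1 c))
      (mul_self_nonneg y))
    nlinarith [not_le.1 c]
  have c3 : d * x + e * (1 - x) < N := by
    rcases c1.eq_or_lt with c | c
    · rw [← c]; linarith
    · nlinarith
  have c4 : (x * x + y * y) + ((1 - x) * (1 - x) + y * y) < 2 :=
    lt_of_mul_lt_mul_left (by nlinarith) hN.le
  have p1 : 0 ≤ x * x + y * y := add_nonneg (mul_self_nonneg _) (mul_self_nonneg _)
  have p2 : 0 ≤ (1 - x) * (1 - x) + y * y := add_nonneg (mul_self_nonneg _) (mul_self_nonneg _)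
  rw [show -y * -y = y * y by ring]
  generalize x * x + y * y = A at *
  generalize (1 - x) * (1 - x) + y * y = B at *
  nlinarith [sq_nonneg (A - B)]

theorem lift_sum (K : IntermediateField ℚ ℂ) {n : ℕ} (hn : 0 < n) (s : Multiset ℂ)
    (hs : ∀ z ∈ s, z ^ n = 1) (hK : ∀ z ∈ s, z ∈ K) :
    ∃ a : K, (a : ℂ) = s.sum ∧ ∀ φ : K →+* ℂ, ‖φ a‖ ≤ s.card := by
  induction s using Multiset.induction_on with
  | empty => exact ⟨0, by simp, by simp⟩
  | cons z s ih =>
    obtain ⟨a, h1, h2⟩ := ih (fun w hw => hs w (Multiset.mem_cons_of_mem hw))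
      (fun w hw => hK w (Multiset.mem_cons_of_mem hw))
    refine ⟨⟨z, hK z (Multiset.mem_cons_self _ _)⟩ + a, by simp [h1], fun φ => ?_⟩
    have : ‖φ ⟨z, hK z (Multiset.mem_cons_self _ _)⟩‖ = 1 :=
      Complex.norm_eq_one_of_pow_eq_one (n := n) (by
        rw [← map_pow, ← map_one φ]
        exact congrArg φ (Subtype.ext (hs z (Multiset.mem_cons_self _ _)))) hn.ne'
    rw [map_add, Multiset.card_cons]
    push_cast
    linarith [norm_add_le (φ ⟨z, hK z (Multiset.mem_cons_self _ _)⟩) (φ a), h2 φ]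

theorem kron {s t : Multiset ℂ} {n N : ℕ} (hn : 0 < n) (hs : ∀ z ∈ s, z ^ n = 1)
    (ht : ∀ z ∈ t, z ^ n = 1) {m : ℂ} (hm : IsIntegral ℤ m) (e1 : N * m = s.card - s.sum)
    (e2 : N * (1 - m) = t.card - t.sum) (h1 : s.card < N) (h2 : t.card < N) :
    m = 0 ∨ m = 1 := by
  classical
  by_contra c
  rw [not_or] at c
  let K := IntermediateField.adjoin ℚ ((s + t).toFinset : Set ℂ)
  have : FiniteDimensional ℚ K := IntermediateField.finiteDimensional_adjoin (fun z hz => by
    have : z ^ n = 1 := by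
      rcases (by simpa using hz : z ∈ s ∨ z ∈ t) with h | h
      exacts [hs z h, ht z h]
    exact IsIntegral.of_pow hn (by rw [this]; exact isIntegral_one))
  have : NumberField K := {}
  obtain ⟨a, a1, a2⟩ := lift_sum K hn s hs fun z hz =>
    IntermediateField.subset_adjoin _ _ (by simp [hz])
  obtain ⟨b, b1, b2⟩ := lift_sum K hn t ht fun z hz =>
    IntermediateField.subset_adjoin _ _ (by simp [hz])
  have hN : N ≠ 0 := by omega
  have hN' : (N : ℂ) ≠ 0 := by exact_mod_cast hN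
  have hN'' : (N : K) ≠ 0 := by exact_mod_cast hN
  let μ : K := (s.card - a) / N
  have hμ : (μ : ℂ) = m := by
    simp only [μ]
    push_cast
    rw [a1, ← e1]; field_simp
  have f1 : (N : K) * μ = s.card - a := by simp only [μ]; field_simp
  have f2 : (N : K) * (1 - μ) = t.card - b := Subtype.ext (by push_cast; rw [hμ, e2, b1])
  have hlt : ∀ φ : K →+* ℂ, ‖φ (μ * (1 - μ))‖ < 1 := fun φ => by
    have g1 := congrArg φ f1
    have g2 := congrArg φ f2
    simp only [map_mul, map_sub, map_natCast, map_one] at g1 g2 ⊢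
    refine lens (N := N) (d := s.card) (e := t.card) (Nat.cast_nonneg _) (Nat.cast_nonneg _)
      (by exact_mod_cast h1) (by exact_mod_cast h2) ?_ ?_
    · push_cast; rw [g1, sub_sub_cancel]; exact a2 φ
    · push_cast; rw [g2, sub_sub_cancel]; exact b2 φ
  have hi : IsIntegral ℤ μ := by
    rw [← isIntegral_algHom_iff (K.val.restrictScalars ℤ) Subtype.val_injective]
    change IsIntegral ℤ (μ : ℂ)
    rwa [hμ]
  have h0 : μ * (1 - μ) ≠ 0 := mul_ne_zero (fun e => c.1 (by rw [← hμ, e]; rfl))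
    (fun e => c.2 (by rw [← hμ, ← sub_eq_zero.1 e]; rfl))
  obtain ⟨k, hk, e⟩ := NumberField.Embeddings.pow_eq_one_of_norm_le_one K ℂ h0
    (hi.mul (isIntegral_one.sub hi)) fun φ => (hlt φ).le
  exact (hlt K.val.toRingHom).ne (Complex.norm_eq_one_of_pow_eq_one (n := k)
    (by rw [← map_pow, e, map_one]) hk.ne')

theorem int_bez {z : ℂ} {a b : ℕ} (h : a.Coprime b) (ha : a ≠ 0) (hb : b ≠ 0)
    (h1 : IsIntegral ℤ (z / a)) (h2 : IsIntegral ℤ (z / b)) : IsIntegral ℤ (z / (a * b : ℕ)) := by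
  obtain ⟨u, v, huv⟩ := Nat.isCoprime_iff_coprime.2 h
  have e : (u : ℂ) * a + v * b = 1 := by exact_mod_cast huv
  have ha' : (a : ℂ) ≠ 0 := by exact_mod_cast ha
  have hb' : (b : ℂ) ≠ 0 := by exact_mod_cast hb
  rw [show z / (a * b : ℕ) = u * (z / b) + v * (z / a) by
    push_cast; field_simp; linear_combination (-z) * e]
  exact ((isIntegral_intCast' u).mul h2).add ((isIntegral_intCast' v).mul h1)

variable {G Ω : Type u} [Group G]

theorem int_div [Finite G] {χ : G → ℂ} (hχ : IsIrrCharacter G χ) {d k : ℕ} (hd : χ 1 = d)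
    (hk : k ∣ d) {x : G} (hc : k.Coprime (Subgroup.centralizer ({x} : Set G)).index) :
    IsIntegral ℤ ((d - χ x) / k) := by
  obtain ⟨l, rfl⟩ := hk
  obtain ⟨u, v, huv⟩ := Nat.isCoprime_iff_coprime.2 hc
  have e : (u : ℂ) * k + v * (Subgroup.centralizer ({x} : Set G)).index = 1 := by exact_mod_cast huv
  have h0 := irr_one_ne_zero hχ
  have h1 := irr_class_isIntegral hχ x
  rw [hd] at h0 h1
  push_cast at h0 h1 ⊢
  have hk := left_ne_zero_of_mul h0
  have hl := right_ne_zero_of_mul h0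
  rw [show ((k : ℂ) * l - χ x) / k = l - (u * χ x + v * l *
      ((Subgroup.centralizer ({x} : Set G)).index * χ x / (k * l))) by
    field_simp; linear_combination (χ x) * e]
  exact (isIntegral_natCast' l).sub (((isIntegral_intCast' u).mul
    (char_isIntegral (irr_isChar hχ) x)).add
    (((isIntegral_intCast' v).mul (isIntegral_natCast' l)).mul h1))

variable [MulAction G Ω] {i j : Ω} {s : G}

/-- the hypothesis on `ρ` -/
def Hy (i j : Ω) (s : G) (ρ : stabilizer G i →* ℂˣ) : Prop :=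
  ∀ v w : G, IsConj s v → IsConj s w → v • i = j → w • i = j →
    ∀ e : v * w ∈ stabilizer G i, ρ ⟨v * w, e⟩ = 1

/-- `ρ` as a function -/
def fn (ρ : stabilizer G i →* ℂˣ) : stabilizer G i →* ℂ := (Units.coeHom ℂ).comp ρ

theorem cj_conj {v : G} (h : IsConj s v) (a : G) : IsConj s (a * v * a⁻¹) :=
  h.trans (isConj_iff.2 ⟨a, rfl⟩)

theorem cj_sq (hs : orderOf s = 2) {v : G} (h : IsConj s v) : v * v = 1 := by
  obtain ⟨c, rfl⟩ := isConj_iff.1 h
  rw [← pow_two, conj_pow, ← hs, pow_orderOf_eq_one]; simp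

theorem cj_fpf (hf : ∀ k : Ω, s • k ≠ k) {v : G} (h : IsConj s v) (k : Ω) : v • k ≠ k := by
  obtain ⟨c, rfl⟩ := isConj_iff.1 h
  intro e
  exact hf (c⁻¹ • k) (by rw [← mul_smul, eq_inv_smul_iff, ← mul_smul, ← mul_assoc, e])

variable (h2 : ∀ a b : Ω, a ≠ i → b ≠ i → ∃ g : G, g • i = i ∧ g • a = b) (hij : i ≠ j)
  (hs : orderOf s = 2) (hf : ∀ k : Ω, s • k ≠ k) {ρ : stabilizer G i →* ℂˣ} (hρ : Hy i j s ρ)
include h2 hij hs hf hρ

theorem rho_conj (x : G) (h : stabilizer G i) (e : x⁻¹ * h * x ∈ stabilizer G i) :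
    ρ ⟨_, e⟩ = ρ h := by
  by_cases hx : x • i = i
  · rw [show (⟨_, e⟩ : stabilizer G i) = (⟨x, hx⟩ : stabilizer G i)⁻¹ * h * ⟨x, hx⟩ from rfl,
      map_mul, map_mul, mul_right_comm, map_inv, inv_mul_cancel, one_mul]
  obtain ⟨a, a1, a2⟩ := h2 _ _ hx hij.symm
  obtain ⟨b, b1, b2⟩ := h2 _ _ (hf i) hij.symm
  have hv := cj_conj (IsConj.refl s) b
  set v := b * s * b⁻¹
  have v1 : v • i = j := by rw [mul_smul, mul_smul, inv_smul_eq_iff.2 b1.symm, b2]
  have v2 := cj_sq hs hv
  have v3 : v • j = i := by rw [← v1, ← mul_smul, v2, one_smul]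
  let A : stabilizer G i := ⟨a, a1⟩
  let Y : stabilizer G i := ⟨v * a * x, by rw [mem_stabilizer_iff, mul_smul, mul_smul, a2, v3]⟩
  let h' := A * h * A⁻¹
  have e1 : (h : G) • x • i = x • i := by
    rw [mem_stabilizer_iff, mul_smul, mul_smul, inv_smul_eq_iff] at e; exact e
  have e2 : (h' : G) • j = j := by
    change (a * h * a⁻¹) • j = j
    rw [mul_smul, mul_smul, inv_smul_eq_iff.2 a2.symm, e1, a2]
  let U : stabilizer G i := ⟨v * h' * v, by rw [mem_stabilizer_iff, mul_smul, mul_smul, v1, e2, v3]⟩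
  have e3 := hρ v _ hv (cj_conj hv h') v1 (by
    rw [mul_smul, mul_smul, show (h' : G)⁻¹ • i = i from (h'⁻¹).2, v1, e2])
    (by simpa [U, mul_assoc] using (U * h'⁻¹).2)
  rw [show (⟨_, _⟩ : stabilizer G i) = U * h'⁻¹ from Subtype.ext (by simp [U, mul_assoc]), map_mul,
    map_inv, mul_inv_eq_one] at e3
  have v4 : v⁻¹ = v := inv_eq_of_mul_eq_one_right v2
  rw [show (⟨_, e⟩ : stabilizer G i) = Y⁻¹ * U * Y from Subtype.ext (by
    change x⁻¹ * h * x = (v * a * x)⁻¹ * (v * (a * h * a⁻¹) * v) * (v * a * x)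
    calc _ = (v * a * x)⁻¹ * (v * (a * h * a⁻¹) * (v * v) * a * x) := by rw [v2]; group
      _ = _ := by simp only [mul_assoc]),
    map_mul, map_mul, mul_right_comm, map_inv, inv_mul_cancel, one_mul, e3, map_mul, map_mul,
    mul_right_comm, map_inv, mul_inv_cancel, one_mul]

variable [Fintype G]

theorem ind_res (h : stabilizer G i) :
    indFun (stabilizer G i) (fn ρ) h = fn ρ h * indFun (stabilizer G i) (fun _ => 1) h := by
  simp only [indFun]
  rw [mul_left_comm, mul_sum (a := fn ρ h)]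
  congr 1
  refine sum_congr rfl fun x _ => ?_
  by_cases e : x⁻¹ * h * x ∈ stabilizer G i
  · rw [extendByZero_of_mem _ _ e, extendByZero_of_mem _ _ e, mul_one]
    exact congrArg Units.val (rho_conj h2 hij hs hf hρ x h e)
  · rw [extendByZero_of_not_mem _ _ e, extendByZero_of_not_mem _ _ e, mul_zero]

theorem ind_norm : classInner (indFun (stabilizer G i) (fn ρ)) (indFun (stabilizer G i) (fn ρ)) =
    classInner (indFun (stabilizer G i) fun _ => 1) (indFun (stabilizer G i) fun _ => 1) := by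
  let _ := Fintype.ofFinite (stabilizer G i)
  rw [inner_indFun_left _ _ (indFun_class _ _), inner_indFun_left _ _ (indFun_class _ _)]
  simp only [classInner]
  congr 1
  refine sum_congr rfl fun h _ => ?_
  rw [ind_res h2 hij hs hf hρ, map_mul, ← mul_assoc, ← char_apply_inv (irr_isChar (irr_of_hom _)),
    ← map_mul, mul_inv_cancel, map_one]

theorem ind_conv : classInner (conv (classInd s) (classInd s)) (indFun (stabilizer G i) (fn ρ)) =
    classInner (conv (classInd s) (classInd s)) (indFun (stabilizer G i) fun _ => 1) := by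
  let _ := Fintype.ofFinite (stabilizer G i)
  have hc := conv_class (classInd_class s) (classInd_class s)
  rw [inner_indFun_right _ _ hc, inner_indFun_right _ _ hc]
  simp only [classInner]
  congr 1
  refine sum_congr rfl fun h _ => ?_
  by_cases e : conv (classInd s) (classInd s) h = 0
  · rw [e, zero_mul, zero_mul]
  obtain ⟨v, -, hv⟩ := exists_ne_zero_of_sum_ne_zero e
  have v1 : IsConj s v := by
    by_contra c; exact left_ne_zero_of_mul hv (if_neg c)
  have v2 : IsConj s (v⁻¹ * h) := by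
    by_contra c; exact right_ne_zero_of_mul hv (if_neg c)
  obtain ⟨a, a1, a2⟩ := h2 _ _ (cj_fpf hf v1 i) hij.symm
  have a3 : a⁻¹ • i = i := inv_smul_eq_iff.2 a1.symm
  let A : stabilizer G i := ⟨a, a1⟩
  have e3 := hρ _ _ (cj_conj v1 a) (cj_conj v2 a) (by rw [mul_smul, mul_smul, a3, a2])
    (by rw [mul_smul, mul_smul, a3, mul_smul, show (h : G) • i = i from h.2,
      inv_eq_of_mul_eq_one_right (cj_sq hs v1), a2])
    (by simpa [A, mul_assoc] using (A * h * A⁻¹).2)
  rw [show (⟨_, _⟩ : stabilizer G i) = A * h * A⁻¹ from Subtype.ext (by simp [A, mul_assoc]),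
    map_mul, map_mul, mul_right_comm, map_inv, mul_inv_cancel, one_mul] at e3
  rw [show fn ρ h = 1 from congrArg Units.val e3]

omit hρ hs hf hij h2 in
theorem ind_fix [Finite Ω] (h1 : ∀ a b : Ω, ∃ g : G, g • a = b) (g : G) :
    indFun (stabilizer G i) (fun _ => 1) g = Nat.card (fixedBy Ω g) := by
  classical
  let _ := Fintype.ofFinite Ω
  rw [indFun_stabilizer i (class_const 1) g (univ.filter fun k => g • k = k) (by simp)
    (fun _ => 1) fun k hk => ?_]
  · rw [Nat.card_eq_fintype_card, Fintype.card_subtype]; simp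
  · obtain ⟨x, rfl⟩ := h1 i k
    exact ⟨x, rfl, extendByZero_of_mem _ _ (by
      rw [mem_stabilizer_iff, mul_smul, mul_smul, (mem_filter.1 hk).2, inv_smul_smul])⟩

omit hρ hs hf in
theorem perm_norm [Finite Ω] (h1 : ∀ a b : Ω, ∃ g : G, g • a = b) :
    classInner (indFun (stabilizer G i) fun _ => 1) (indFun (stabilizer G i) fun _ => 1) = 2 := by
  let _ := Fintype.ofFinite (stabilizer G i)
  have o : Nat.card (orbitRel.Quotient (stabilizer G i) Ω) = 2 := by
    rw [Nat.card_eq_two_iff]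
    refine ⟨Quotient.mk _ i, Quotient.mk _ j, fun e => ?_, Set.eq_univ_iff_forall.2 fun x => ?_⟩
    · obtain ⟨g, hg⟩ := Quotient.exact e
      exact hij (smul_left_cancel g.1 (Eq.trans g.2 (Eq.symm hg)))
    · obtain ⟨x, rfl⟩ := Quotient.exists_rep x
      by_cases e : x = i
      · exact .inl (by rw [e])
      · obtain ⟨g, g1, g2⟩ := h2 j x hij.symm e
        exact .inr (Quotient.sound ⟨⟨g, g1⟩, g2⟩)
  have b := burnside_nat (G := stabilizer G i) (Ω := Ω)
  rw [o] at b
  have b' : ∑ h : stabilizer G i, (Nat.card (fixedBy Ω (h : G)) : ℂ) =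
      2 * Nat.card (stabilizer G i) := by exact_mod_cast b
  rw [inner_indFun_left _ _ (indFun_class _ _)]
  simp only [classInner, ind_fix h1, map_natCast, one_mul, b']
  have := card_ne_zero' (G := stabilizer G i)
  field_simp

omit hρ hs hf hij h2 in
theorem conv_irr {χ : G → ℂ} (hχ : IsIrrCharacter G χ) {a : ℤ} (ha : χ s = a) :
    classInner (conv (classInd s) (classInd s)) χ =
      Nat.card G / Nat.card (Subgroup.centralizer ({s} : Set G)) ^ 2 * (a ^ 2 / χ 1) := by
  rw [inner_conv _ (classInd_class s) hχ, inner_classInd s (char_isClass (irr_isChar hχ)), ha,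
    map_intCast]
  ring

omit hρ hs in
theorem conv_perm [Finite Ω] (h1 : ∀ a b : Ω, ∃ g : G, g • a = b) {N : ℕ}
    (hN : Nat.card Ω = N + 1) (h0 : N ≠ 0) :
    classInner (conv (classInd s) (classInd s)) (indFun (stabilizer G i) fun _ => 1) =
      Nat.card G / Nat.card (Subgroup.centralizer ({s} : Set G)) ^ 2 * (1 + 1 / N) := by
  let _ := Fintype.ofFinite (stabilizer G i)
  set π := indFun (stabilizer G i) fun _ => (1 : ℂ) with hπ
  have c : IsCharacter G π := char_indFun _ char_one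
  have i1 : classInner π (fun _ => 1) = 1 := by rw [inner_indFun_one, inner_irr_self irr_one]
  have i2 : classInner (fun _ => 1) π = 1 := by rw [← CfsgL.inner_conj_symm, i1, map_one]
  have d1 : (π - fun _ => (1 : ℂ) : G → ℂ) 1 = N := by
    rw [Pi.sub_apply, hπ, ind_fix h1, fixedBy_one_eq_univ, Nat.card_univ, hN]; simp
  have ds : (π - fun _ => (1 : ℂ) : G → ℂ) s = (-1 : ℤ) := by
    rw [Pi.sub_apply, hπ, ind_fix h1, Set.eq_empty_of_forall_notMem (s := fixedBy Ω s) hf]; simp
  have ir : IsIrrCharacter G (π - fun _ => 1) :=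
    irr_of_char_norm_one (char_sub_irr c irr_one (by rw [i1]; exact one_ne_zero)) (by
      rw [CfsgL.inner_sub_left, CfsgL.inner_sub_right, CfsgL.inner_sub_right, i1, i2,
        inner_irr_self irr_one, hπ, perm_norm h2 hij h1]; ring)
  rw [show π = (fun _ => 1) + (π - fun _ => 1) by simp, CfsgL.inner_add_right, conv_irr ir ds,
    conv_irr irr_one (a := 1) (by simp), d1]
  push_cast; ring

end CfsgJ.CH

namespace CfsgJ

open Cfsg CfsgL CfsgH3 CfsgH6 MulAction Finset CH

universe u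

theorem lemCH : CHSt.{u} := by
  intro G Ω _ _ _ _ _ i j s x ρ hx hc h1 h2 hij hs hf hρ1 hρ hx11 hx1 hρx hcop
  let _ := Fintype.ofFinite G
  let _ := Fintype.ofFinite (stabilizer G i)
  have hx0 : x ≠ 1 := fun e => by simp [e] at hx11
  have hθ : IsCharacter G (indFun (stabilizer G i) (fn ρ)) :=
    char_indFun _ (irr_isChar (irr_of_hom _))
  obtain ⟨χ, ψ, hχ, hψ, e, i1, i2⟩ := char_norm_two hθ
    ((ind_norm h2 hij hs hf hρ).trans (perm_norm h2 hij h1))
  have t0 : classInner (indFun (stabilizer G i) (fn ρ)) (fun _ => 1) = 0 := by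
    rw [inner_indFun_one]
    exact inner_irr_ne (irr_of_hom _) irr_one fun c => hρ1 (MonoidHom.ext fun h =>
      Units.ext (congrFun c h))
  have key : ∀ φ : G → ℂ, IsIrrCharacter G φ →
      classInner (indFun (stabilizer G i) (fn ρ)) φ = 1 →
      (∃ d : ℕ, 2 ≤ d ∧ φ 1 = d) ∧ φ x ≠ φ 1 ∧ ∃ a : ℤ, φ s = a := fun φ hφ i0 => by
    have k := charKer_eq_bot_of_simple hφ fun c => by rw [c, t0] at i0; exact zero_ne_one i0
    refine ⟨?_, fun c => hx0 (Subgroup.mem_bot.1 (k ▸ (mem_charKer_iff (irr_isChar hφ)).2 c)),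
      char_int_of_pow_eq (irr_isChar hφ) s fun k hk => ?_⟩
    · obtain ⟨d, d0, d1⟩ := irr_deg_pos hφ
      refine ⟨d, ?_, d1⟩
      by_contra c
      obtain rfl : d = 1 := by omega
      have := commutator_le_charKer_of_deg_one (irr_isChar hφ) (by simpa using d1)
      rw [hc, k] at this
      exact hx0 (Subgroup.mem_bot.1 (this trivial))
    · rw [hs, Nat.coprime_two_right, Nat.odd_iff] at hk
      rw [← pow_mod_orderOf, hs, hk, pow_one]
  obtain ⟨⟨d, d2, d1⟩, k1, a, ha⟩ := key χ hχ i1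
  obtain ⟨⟨d', d2', d1'⟩, k2, b, hb⟩ := key ψ hψ i2
  obtain ⟨N, hN⟩ : ∃ N, Nat.card Ω = N + 1 :=
    Nat.exists_eq_succ_of_ne_zero (Nat.card_pos_iff.2 ⟨⟨i⟩, inferInstance⟩).ne'
  have s1 : d + d' = N + 1 := by
    have := ind_res h2 hij hs hf hρ 1
    rw [e, map_one, one_mul, ind_fix h1, OneMemClass.coe_one, fixedBy_one_eq_univ, Nat.card_univ,
      hN, Pi.add_apply, d1, d1'] at this
    exact_mod_cast this
  have s2 : χ x + ψ x = 1 := by
    have := ind_res h2 hij hs hf hρ ⟨x, hx⟩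
    rw [e, show fn ρ ⟨x, hx⟩ = 1 from congrArg Units.val hρx, one_mul, ind_fix h1,
      show fixedBy Ω x = {i} from Set.eq_singleton_iff_unique_mem.2 ⟨hx, hx1⟩] at this
    simpa using this
  have s3 : b = -a := by
    have := indFun_eq_zero (stabilizer G i) (fn ρ) s fun y hy => absurd (by
      rw [mem_stabilizer_iff, mul_smul, mul_smul, inv_smul_eq_iff] at hy; exact hy) (hf _)
    rw [e, Pi.add_apply, ha, hb] at this
    have : a + b = 0 := by exact_mod_cast this
    omega
  have N0 : N ≠ 0 := by omega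
  have s4 : N ∣ d * d' := by
    have := (ind_conv h2 hij hs hf hρ).trans (conv_perm h2 hij hf h1 hN N0)
    rw [e, CfsgL.inner_add_right, conv_irr hχ ha, conv_irr hψ hb, ← mul_add, d1, d1', s3] at this
    have q := mul_left_cancel₀ (div_ne_zero card_ne_zero' (pow_ne_zero 2 (by exact_mod_cast Nat.card_pos.ne'))) this
    have n1 : (d : ℂ) ≠ 0 := by exact_mod_cast (by omega : d ≠ 0)
    have n2 : (d' : ℂ) ≠ 0 := by exact_mod_cast (by omega : d' ≠ 0)
    have n3 : (N : ℂ) ≠ 0 := by exact_mod_cast N0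
    have n4 : (N : ℂ) + 1 ≠ 0 := by exact_mod_cast Nat.succ_ne_zero N
    have s1' : (d : ℂ) + d' = N + 1 := by exact_mod_cast s1
    field_simp at q
    have q' : ((d : ℂ) * d') = N * a ^ 2 := mul_left_cancel₀ n4 (by
      push_cast at q
      linear_combination -q + (a ^ 2 * N) * s1')
    exact Int.natCast_dvd_natCast.1 ⟨a ^ 2, by exact_mod_cast q'⟩
  rw [hN, Nat.add_sub_cancel] at hcop
  have c1 : (Nat.gcd d N).Coprime (Nat.gcd d' N) := by
    refine Nat.dvd_one.1 ((Nat.dvd_add_right ((Nat.gcd_dvd_left _ _).trans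
      (Nat.gcd_dvd_right d N))).1 (s1 ▸ dvd_add ((Nat.gcd_dvd_left _ _).trans
      (Nat.gcd_dvd_left _ _)) ((Nat.gcd_dvd_right _ _).trans (Nat.gcd_dvd_left _ _))))
  have c2 : Nat.gcd d N * Nat.gcd d' N = N := Nat.dvd_antisymm
    (c1.mul_dvd_of_dvd_of_dvd (Nat.gcd_dvd_right _ _) (Nat.gcd_dvd_right _ _)) (by
      have := Nat.gcd_mul_right_dvd_mul_gcd N d d'
      rwa [Nat.gcd_eq_left s4, Nat.gcd_comm N, Nat.gcd_comm N] at this)
  have g0 : ∀ c, Nat.gcd c N ≠ 0 := fun c => Nat.gcd_ne_zero_right N0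
  have s1' : (d : ℂ) + d' = N + 1 := by exact_mod_cast s1
  have n3 : (N : ℂ) ≠ 0 := by exact_mod_cast N0
  have j1 := int_div hχ d1 (Nat.gcd_dvd_left d N) (hcop.coprime_dvd_left (Nat.gcd_dvd_right _ _))
  have j2 := int_div hψ d1' (Nat.gcd_dvd_left d' N) (hcop.coprime_dvd_left (Nat.gcd_dvd_right _ _))
  have j3 : IsIntegral ℤ ((d - χ x) / Nat.gcd d' N) := by
    have : (Nat.gcd d N : ℂ) * Nat.gcd d' N = N := by exact_mod_cast c2
    have n4 : (Nat.gcd d' N : ℂ) ≠ 0 := by exact_mod_cast g0 d'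
    rw [show (d - χ x) / Nat.gcd d' N = Nat.gcd d N - (d' - ψ x) / Nat.gcd d' N by
      field_simp; linear_combination s1' - s2 - this]
    exact (isIntegral_natCast' _).sub j2
  have j4 := int_bez c1 (g0 _) (g0 _) j1 j3
  rw [c2] at j4
  obtain ⟨S, p1, p2, p3⟩ := char_eigenvalues (irr_isChar hχ) x
  obtain ⟨T, q1, q2, q3⟩ := char_eigenvalues (irr_isChar hψ) x
  have p4 := p3 1
  have q4 := q3 1
  simp only [zpow_one, Multiset.map_id'] at p4 q4
  have p5 : S.card = d := by exact_mod_cast p1.trans d1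
  have q5 : T.card = d' := by exact_mod_cast q1.trans d1'
  rcases kron (N := N) (orderOf_pos x) p2 q2 j4 (by rw [p5, ← p4]; field_simp)
    (by rw [q5, ← q4]; field_simp; linear_combination s2 - s1') (by omega) (by omega) with r | r
  · exact k1 (by rw [d1, sub_eq_zero.1 ((div_eq_zero_iff.1 r).resolve_right n3)])
  · rw [div_eq_one_iff_eq n3] at r
    exact k2 (by rw [d1']; linear_combination s2 - s1' + r)

end CfsgJ
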