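import Cfsg.Agent.H5.SRing
import Cfsg.Agent.H4.PrimeDeg2

set_option autoImplicit false
set_option linter.style.haveILetI false
set_option linter.unusedSectionVars false

/-! A primitive group with a regular cyclic subgroup (Schur, Burnside). -/

namespace CfsgSE

open CfsgH5.SRing MulAction

theorem pc_dvd {C : Type*} [CommGroup C] [Fintype C] {p : ℕ} (hp : p.Prime) {e : C}
    (he : orderOf e = p) (P : C → Prop) [DecidablePred P] (h : ∀ x, P x → P (e * x)) :
    p ∣ (Finset.univ.filter P).card := by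
  classical
  haveI := Fact.mk hp
  have h' : ∀ (n : ℕ) x, P x → P (e ^ n * x) := fun n => by
    induction n with
    | zero => intro x hx; simpa using hx
    | succ n ih => intro x hx; rw [pow_succ', mul_assoc]; exact h _ (ih x hx)
  let s : SubMulAction (Subgroup.zpowers e) C :=
    { carrier := {x | P x}
      smul_mem' := fun c x hx => by
        obtain ⟨n, hn⟩ := mem_powers_iff_mem_zpowers.2 c.2
        have := h' n x hx
        simp only at hn
        rw [hn] at this
        exact this }
  have hP : IsPGroup p (Subgroup.zpowers e) := IsPGroup.of_card (n := 1) (by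
    rw [Nat.card_zpowers, he, pow_one])
  have h1 := hP.card_modEq_card_fixedPoints s
  have he1 : e ≠ 1 := by rintro rfl; exact hp.one_lt.ne (by simpa using he)
  have h2 : IsEmpty (fixedPoints (Subgroup.zpowers e) s) := ⟨fun x => by
    have := congrArg Subtype.val (x.2 ⟨e, Subgroup.mem_zpowers e⟩)
    exact he1 (by simpa [Subgroup.smul_def] using this)⟩
  rw [Nat.card_of_isEmpty (α := fixedPoints _ s)] at h1
  have h3 : Nat.card s = (Finset.univ.filter P).card := by
    rw [← Fintype.card_subtype, Nat.card_eq_fintype_card]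
    exact Fintype.card_congr (Equiv.refl _)
  rw [← h3]
  exact (Nat.modEq_zero_iff_dvd).1 h1

theorem pc_schur {C : Type*} [CommGroup C] [Fintype C] [IsCyclic C] (S : SR C) {p : ℕ}
    (hp : p.Prime) (hpd : p ∣ Fintype.card C) (hne : Fintype.card C ≠ p) (x y : C) (hx : x ≠ 1)
    (hy : y ≠ 1) : S.r x y := by
  classical
  haveI := Fact.mk hp
  have frob : ∀ (z : C), Inv S.r (fun w =>
      ((Finset.univ.filter (fun y => y ^ p = w ∧ S.r z y)).card : ZMod p)) := by
    intro z u v h
    have h1 := (S.alg (ZMod p)).pow_mem (S.ofF_mem (S.ind_inv (ZMod p) (S.inv_cls z))) p u v h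
    rw [pow_char p _ (fun _ _ _ _ => Commute.all _ _), pow_char p _ (fun _ _ _ _ => Commute.all _ _)]
      at h1
    simpa only [coeff_ofF, sum_ind] using h1
  obtain ⟨e, he⟩ := exists_prime_orderOf_dvd_card p hpd
  have he1 : e ≠ 1 := by rintro rfl; exact hp.one_lt.ne (by simpa using he)
  have hep : e ^ p = 1 := he ▸ pow_orderOf_eq_one e
  have hK : (powMonoidHom p : C →* C).range ≠ ⊤ := by
    intro h
    have h1 : Function.Surjective (powMonoidHom p : C →* C) := MonoidHom.range_eq_top.1 h
    have h2 := Finite.injective_iff_surjective.2 h1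
    exact he1 (h2 (by simpa using hep))
  have st : ∀ z w f : C, S.r z w → w ^ p ≠ 1 → f ^ p = 1 → S.r z (f * w) := by
    intro z w f hw hw1 hf
    have h2 := S.eq_zero_of_le hK (frob z) (fun u hu => by
      rw [Finset.filter_eq_empty_iff.2]
      · simp
      · rintro v - ⟨h, -⟩
        exact hu ⟨v, h⟩) (x := w ^ p) hw1
    exact fiber_full hp.pos _ hw ((ZMod.natCast_eq_zero_iff _ _).1 h2) hf
  have meet : ∀ z, z ≠ 1 → ∃ w, w ≠ 1 ∧ w ^ p = 1 ∧ S.r z w := by
    intro z hz
    by_contra hc
    push Not at hc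
    have h1 : ∀ w, S.r z w → S.r z (e * w) := fun w hw =>
      st z w e hw (fun h => hc w (fun h => hz (S.one (h ▸ hw))) h hw) hep
    rcases S.stab_cases (S.inv_cls z) he1 h1 with h | h
    · exact h z (S.refl z)
    · exact hz (S.one (h 1))
  have hE : (Finset.univ.filter (fun u : C => u ^ p = 1)).card ≤ p :=
    IsCyclic.card_pow_eq_one_le (α := C) hp.pos
  have hEt : (powMonoidHom p : C →* C).ker ≠ ⊤ := by
    intro h
    have h1 : Finset.univ.filter (fun u : C => u ^ p = 1) = Finset.univ :=
      Finset.filter_true_of_mem fun u _ => by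
        have : u ∈ (powMonoidHom p : C →* C).ker := h ▸ Subgroup.mem_top u
        simpa [MonoidHom.mem_ker] using this
    rw [h1, Finset.card_univ] at hE
    exact hne (le_antisymm hE (Nat.le_of_dvd Fintype.card_pos hpd))
  have out : ∀ z, z ≠ 1 → ∃ v, v ^ p ≠ 1 ∧ S.r z v := by
    intro z hz
    by_contra hc
    push Not at hc
    refine hz (S.eq_one_of_le hEt fun v hv => ?_)
    by_contra h
    exact hc v (by simpa [MonoidHom.mem_ker] using h) hv
  have cl : ∀ z a b : C, z ≠ 1 → S.r z a → S.r z b → a ^ p = 1 → b ^ p = 1 → a * b ≠ 1 →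
      S.r z (a * b) := by
    intro z a b hz ha hb hap hbp hab
    by_contra hn
    obtain ⟨v, hv1, hv⟩ := out _ hab
    have hzv : ¬ S.r z v := fun h => hn (S.trans h (S.symm hv))
    have h1 := S.mul _ _ (S.ind_inv ℤ (S.inv_cls z)) (S.ind_inv ℤ (S.inv_cls z)) _ _ hv
    have cnt : ∀ u : C, ∑ x, ind ℤ (S.r z) x * ind ℤ (S.r z) (x⁻¹ * u) =
        ((Finset.univ.filter (fun x => S.r z x ∧ S.r z (x⁻¹ * u))).card : ℤ) := fun u => by
      rw [← Finset.sum_boole]
      refine Finset.sum_congr rfl fun x _ => ?_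
      unfold ind
      by_cases h1 : S.r z x <;> by_cases h2 : S.r z (x⁻¹ * u) <;> simp [h1, h2]
    simp only [cnt] at h1
    have h2 := Nat.cast_injective (R := ℤ) h1
    have stab : ∀ u x : C, S.r z x → S.r z (x⁻¹ * u) → x ^ p ≠ 1 → (x⁻¹ * u) ^ p ≠ 1 →
        S.r z (e * x) ∧ S.r z ((e * x)⁻¹ * u) := fun u x h1 h2 h3 h4 =>
      ⟨st z x e h1 h3 hep, by
        have := st z _ e⁻¹ h2 h4 (by rw [inv_pow, hep, inv_one])
        rwa [mul_inv, mul_assoc]⟩
    have d1 : p ∣ (Finset.univ.filter (fun x => S.r z x ∧ S.r z (x⁻¹ * v))).card := by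
      refine pc_dvd hp he _ fun x hx => stab v x hx.1 hx.2 (fun h => ?_) (fun h => ?_)
      · have h5 : (x⁻¹ * v) ^ p ≠ 1 := by rwa [mul_pow, inv_pow, h, inv_one, one_mul]
        have := st z _ x hx.2 h5 h
        rw [mul_inv_cancel_left] at this
        exact hzv this
      · have h5 : x ^ p ≠ 1 := fun h' => hv1 (by rwa [mul_pow, inv_pow, h', inv_one, one_mul] at h)
        have := st z _ _ hx.1 h5 h
        rw [mul_right_comm, inv_mul_cancel, one_mul] at this
        exact hzv this
    have hw : (a * b) ^ p = 1 := by rw [mul_pow, hap, hbp, one_mul]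
    have d2 : p ∣ (Finset.univ.filter
        (fun x => (S.r z x ∧ S.r z (x⁻¹ * (a * b))) ∧ ¬ x ^ p = 1)).card := by
      refine pc_dvd hp he _ fun x hx => ⟨stab _ x hx.1.1 hx.1.2 hx.2 fun h => hx.2 ?_, fun h => hx.2 ?_⟩
      · rwa [mul_pow, hw, mul_one, inv_pow, inv_eq_one] at h
      · rwa [mul_pow, hep, one_mul] at h
    rw [← h2, ← Finset.card_filter_add_card_filter_not (fun x => x ^ p = 1), Finset.filter_filter,
      Finset.filter_filter] at d1
    have d3 := (Nat.dvd_add_left d2).1 d1
    have h6 : (Finset.univ.filter (fun x => (S.r z x ∧ S.r z (x⁻¹ * (a * b))) ∧ x ^ p = 1)) ⊂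
        Finset.univ.filter (fun u : C => u ^ p = 1) := by
      refine Finset.ssubset_iff_of_subset ?_ |>.2 ⟨1, by simp, fun h => ?_⟩
      · intro u hu
        exact Finset.mem_filter.2 ⟨Finset.mem_univ _, (Finset.mem_filter.1 hu).2.2⟩
      · exact hz (S.one (Finset.mem_filter.1 h).2.1.1)
    have h7 := Finset.card_lt_card h6
    have h8 := Nat.le_of_dvd (Finset.card_pos.2 ⟨a, Finset.mem_filter.2
      ⟨Finset.mem_univ _, ⟨ha, by rwa [inv_mul_cancel_left]⟩, hap⟩⟩) d3
    omega
  have all : ∀ z, z ≠ 1 → S.r z e := by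
    intro z hz
    obtain ⟨w, hw1, hwp, hw⟩ := meet z hz
    have how : orderOf w = p := orderOf_eq_prime hwp hw1
    have pw : ∀ j : ℕ, w ^ j = 1 ∨ S.r z (w ^ j) := by
      intro j
      induction j with
      | zero => left; simp
      | succ j ih =>
        rcases ih with h | h
        · right; rwa [pow_succ, h, one_mul]
        · by_cases h1 : w ^ j * w = 1
          · left; rwa [pow_succ]
          · right
            rw [pow_succ]
            exact cl z _ _ hz h hw (by rw [← pow_mul, mul_comm, pow_mul, hwp, one_pow]) hwp h1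
    obtain ⟨j, hj⟩ : ∃ j : ℕ, w ^ j = e := by
      have h2 : ∀ u : C, orderOf u = p → Subgroup.zpowers u = (powMonoidHom p : C →* C).ker := by
        intro u hu
        apply Subgroup.eq_of_le_of_card_ge
        · rw [Subgroup.zpowers_le, MonoidHom.mem_ker, powMonoidHom_apply, ← hu, pow_orderOf_eq_one]
        · rw [Nat.card_zpowers, hu, Nat.card_eq_fintype_card, Fintype.card_subtype]
          simpa [MonoidHom.mem_ker] using hE
      have h3 : e ∈ Subgroup.zpowers w := by
        rw [h2 w how, ← h2 e he]; exact Subgroup.mem_zpowers e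
      exact (mem_powers_iff_mem_zpowers.2 h3)
    rcases pw j with h | h
    · exact absurd (hj ▸ h) he1
    · exact hj ▸ h
  exact S.trans (all x hx) (S.symm (all y hy))

/-- A primitive group with a regular cyclic subgroup is doubly transitive or normalises it. -/
theorem prim_cyc {G Ω C : Type*} [Group G] [Finite G] [MulAction G Ω] [CommGroup C] [Fintype C]
    [IsCyclic C] (φ : C →* G) (a : Ω) (hb : Function.Bijective fun c => φ c • a)
    (hp : IsPreprimitive G Ω) : IsMultiplyPretransitive G Ω 2 ∨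
      ∀ g c, ∃ c', ∀ ω : Ω, (g * φ c * g⁻¹) • ω = φ c' • ω := by
  classical
  by_cases h1 : Fintype.card C = 1
  · refine Or.inr fun g c => ⟨1, fun ω => ?_⟩
    have : c = 1 := Fintype.card_le_one_iff.1 h1.le c 1
    rw [this, map_one, mul_one, mul_inv_cancel]
  obtain ⟨p, hpp, hpd⟩ := Nat.exists_prime_and_dvd h1
  by_cases hne : Fintype.card C = p
  swap
  · exact Or.inl (two_trans φ a hb hp fun S x y hx hy => pc_schur S hpp hpd hne x y hx hy)
  haveI := Fact.mk hpp
  obtain ⟨c0, hc0⟩ := IsCyclic.exists_generator (α := C)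
  let ψ : Multiplicative (ZMod p) ≃* C :=
    zmodMulEquivOfGenerator hc0 (by rw [Nat.card_eq_fintype_card, hne])
  let f : C ≃ Ω := Equiv.ofBijective _ hb
  let e : Ω ≃ ZMod p := f.symm.trans (ψ.symm.toEquiv.trans Multiplicative.toAdd)
  have he : ∀ (c : C) (x : Ω), e (φ c • x) = e x + Multiplicative.toAdd (ψ.symm c) := by
    intro c x
    obtain ⟨d, rfl⟩ := f.surjective x
    have : φ c • f d = f (c * d) := by
      change φ c • φ d • a = φ (c * d) • a
      rw [map_mul, mul_smul]
    rw [this]
    simp [e, add_comm]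
  let K : CfsgH4.Coord G Ω p := ⟨e, φ (ψ (Multiplicative.ofAdd 1)), fun x => by rw [he]; simp⟩
  by_cases hna : ∃ g, g ∉ K.aff
  · exact Or.inl (is_two_pretransitive_iff.2 fun h h' => K.two_trans hna _ _ _ _ h h')
  · push Not at hna
    refine Or.inr fun g c => ?_
    obtain ⟨α, β, hg⟩ := hna g
    refine ⟨ψ (Multiplicative.ofAdd (α * Multiplicative.toAdd (ψ.symm c))), fun ω => e.injective ?_⟩
    have h2 := hg (g⁻¹ • ω)
    have h3 := hg (φ c • g⁻¹ • ω)
    rw [smul_inv_smul] at h2
    change e _ = α * e _ + β at h2 h3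
    rw [mul_smul, mul_smul, h3, he, he, h2]
    simp only [MulEquiv.symm_apply_apply, toAdd_ofAdd]
    ring

end CfsgSE
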