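import Cfsg.Agent.H9.Q4C1

set_option autoImplicit false
set_option linter.unusedSectionVars false

/-! S3404, case B3: the final step. -/

namespace CfsgH9.Q4C

open Subgroup CfsgH1.Q4 CfsgL.Q4B

universe u

variable {G : Type u} {Ω : Type*} [Group G] [Finite G] [MulAction G Ω] [Finite Ω]
variable {F : BB G Ω} {τ j ρ : G} {x y a b e p q z w : Ω}

theorem fin_fix (F : BB G Ω) (h5 : (Fx Ω τ).ncard = 5)
    (hW : ∀ w : G, Commute w τ → (∀ p : Ω, τ • p = p → w • p = p) → w = 1 ∨ w = τ)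
    (hΦ : ∀ s, τ • s = s → s = a ∨ s = b ∨ s = e ∨ s = p ∨ s = q) (hp : τ • p = p)
    (pn : p ≠ a ∧ p ≠ b ∧ p ≠ e) (C : Cf τ z w a b) (hj : In τ z w a b j) (e1 : τ • e = e) (e2 : j • e = e)
    (ea : e ≠ a) (eb : e ≠ b) (c : Commute ρ τ) (r3 : ρ ^ 3 = 1) (ra : ρ • a = b) (rb : ρ • b = e)
    (re : ρ • e = a) (rp : ρ • p = p) (rq : ρ • q = q) : ρ • z = z := by
  have jp : j • p = q := by
    rcases hΦ _ (hj.smul hp) with h | h | h | h | h
    exacts [absurd (MulAction.injective j (h.trans hj.fa.symm)) pn.1,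
      absurd (MulAction.injective j (h.trans hj.fb.symm)) pn.2.1,
      absurd (MulAction.injective j (h.trans e2.symm)) pn.2.2,
      absurd (F.In_fix C hj e1 e2 ea eb hp h) (by simp [pn]), h]
  have jq := swap_back hj.sq jp
  have cj : Commute ρ j := by
    rcases hW (ρ * j * ρ⁻¹ * j) (((c.mul_left hj.cm).mul_left c.inv_left).mul_left hj.cm) (fun s hs => by
      rw [mul_smul]
      rcases hΦ s hs with h | h | h | h | h <;> rw [h]
      exacts [by simpa only [hj.fa, re] using conj_smul (g := ρ) e2,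
        by simpa only [hj.fb, ra] using conj_smul (g := ρ) hj.fa,
        by simpa only [e2, rb] using conj_smul (g := ρ) hj.fb,
        by simpa only [jp, rp, rq] using conj_smul (g := ρ) jq,
        by simpa only [jq, rp, rq] using conj_smul (g := ρ) jp]) with h | h
    · rw [mul_eq_one_iff_eq_inv, hj.inv] at h
      exact mul_inv_eq_iff_eq_mul.1 h
    · rw [← eq_mul_inv_iff_mul_eq, hj.inv] at h
      have t : ρ * τ * ρ⁻¹ = τ := mul_inv_eq_iff_eq_mul.2 c.eq
      have : ρ ^ 3 * j * (ρ ^ 3)⁻¹ = τ * j := by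
        calc _ = ρ * (ρ * (ρ * j * ρ⁻¹) * ρ⁻¹) * ρ⁻¹ := by rw [pow_three]; group
          _ = τ * j := by
            rw [h, ← conj_mul (a := τ) (b := ρ) (c := j), t, h, ← mul_assoc τ, C.sq, one_mul, h]
      rw [r3] at this
      exact absurd (by simpa using this) C.ne
  have n1 := F.ncard_TT (hj.tt C) C.toTT
  have n2 := Set.ncard_inter_add_ncard_sdiff_eq_ncard (Fx Ω j) (Fx Ω τ)
  have n3 := Set.ncard_le_ncard (s := {a, b, e}) (t := Fx Ω j ∩ Fx Ω τ) (by
    rintro _ (rfl | rfl | rfl); exacts [⟨hj.fa, C.fa⟩, ⟨hj.fb, C.fb⟩, ⟨e2, e1⟩])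
  have n4 := F.In_le C hj
  rw [ncard3 C.ab ea.symm eb.symm] at n3
  rw [Set.inter_comm] at n4
  have zn : τ • z ≠ z := fun h => C.xy (h.symm.trans C.sw)
  rcases eq_of_even (S := Fx Ω j \ Fx Ω τ) (by omega) (by omega) C.xy ⟨hj.fx, zn⟩
    ⟨hj.fy, fun h => C.xy (C.sw'.symm.trans h)⟩ (c := ρ • z) ⟨fix_of_comm cj hj.fx, fun h => zn
      (MulAction.injective ρ ((smul_smul _ _ _).trans (by rw [c.eq, mul_smul]; exact h)))⟩ with h | h
  · exact h
  · have : ρ • w = z := by rw [← C.sw, ← mul_smul, c.eq, mul_smul, h, C.sw']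
    have h2 : ρ ^ 3 • z = w := by rw [pow_three, mul_smul, mul_smul, h, this, h]
    rw [r3, one_smul] at h2
    exact absurd h2 C.xy

theorem EG.out (E : EG F τ x y a b) (h5 : (Fx Ω τ).ncard = 5)
    (hW : ∀ w : G, Commute w τ → (∀ p : Ω, τ • p = p → w • p = p) → w = 1 ∨ w = τ)
    (hz : τ • z ≠ z) : z = x ∨ z = y := by
  have C := E.toTT.cf rfl hz.symm E.fa E.fb E.ab
  obtain ⟨j, hj⟩ := F.exists_In C
  obtain ⟨e, e1, e2, ea, eb⟩ := hj.third E.hn C
  obtain ⟨p, hp, pn⟩ := exists_not_mem_of_lt (S := Fx Ω τ) (T := {a, b, e})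
    (by rw [ncard3 C.ab ea.symm eb.symm]; omega)
  simp only [Set.mem_insert_iff, Set.mem_singleton_iff, not_or] at pn
  have d4 : D4 a b e p := ⟨C.ab, ea.symm, Ne.symm pn.1, eb.symm, Ne.symm pn.2.1, Ne.symm pn.2.2⟩
  obtain ⟨q, hq, qn⟩ := exists_not_mem_of_lt (S := Fx Ω τ) (T := {a, b, e, p}) (by rw [d4.ncard]; omega)
  have hΦ : ∀ s, τ • s = s → s = a ∨ s = b ∨ s = e ∨ s = p ∨ s = q := fun s hs => by
    have := (Set.eq_of_subset_of_ncard_le (s := insert q {a, b, e, p}) (t := Fx Ω τ) (by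
      rintro _ (rfl | rfl | rfl | rfl | rfl); exacts [hq, C.fa, C.fb, e1, hp])
      (by rw [Set.ncard_insert_of_notMem qn, d4.ncard, h5])).ge hs
    simp only [Set.mem_insert_iff, Set.mem_singleton_iff] at this
    tauto
  simp only [Set.mem_insert_iff, Set.mem_singleton_iff, not_or] at qn
  obtain ⟨g, hg, ga, gb, ge, gp⟩ := F.witt C.toIv d4
    ⟨eb.symm, C.ab.symm, Ne.symm pn.2.1, ea, Ne.symm pn.2.2, Ne.symm pn.1⟩ C.fa C.fb e1 hp C.fb e1 C.fa hp
  replace hg : Commute g τ := mem_centralizer_singleton_iff.1 hg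
  have gq : g • q = q := by
    rcases hΦ _ (fix_of_comm hg hq) with h | h | h | h | h
    exacts [absurd (MulAction.injective g (h.trans ge.symm)) qn.2.2.1,
      absurd (MulAction.injective g (h.trans ga.symm)) qn.1,
      absurd (MulAction.injective g (h.trans gb.symm)) qn.2.1,
      absurd (MulAction.injective g (h.trans gp.symm)) qn.2.2.2, h]
  have g3 : ∀ s : Ω, τ • s = s → g ^ 3 • s = s := fun s hs => by
    rw [pow_three, mul_smul, mul_smul]
    rcases hΦ s hs with h | h | h | h | h <;> simp only [h, ga, gb, ge, gp, gq]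
  have r3 : (g * g ^ 3) ^ 3 = 1 := by
    rw [← pow_succ', ← pow_mul, mul_comm, pow_mul]
    rcases hW _ (hg.pow_left 3) g3 with h | h <;> rw [h]
    exacts [one_pow _, by rw [show 3 + 1 = 2 * 2 from rfl, pow_mul, pow_two τ, C.sq, one_pow]]
  have ra : (g * g ^ 3) • a = b := by rw [mul_smul, g3 a C.fa, ga]
  have rb : (g * g ^ 3) • b = e := by rw [mul_smul, g3 b C.fb, gb]
  have re : (g * g ^ 3) • e = a := by rw [mul_smul, g3 e e1, ge]
  have rp : (g * g ^ 3) • p = p := by rw [mul_smul, g3 p hp, gp]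
  have rq : (g * g ^ 3) • q = q := by rw [mul_smul, g3 q hq, gq]
  have c := hg.mul_left (hg.pow_left 3)
  generalize g * g ^ 3 = ρ at *
  have rz := fin_fix F h5 hW hΦ hp pn C hj e1 e2 ea eb c r3 ra rb re rp rq
  have r1 : ρ ≠ 1 := by rintro rfl; exact C.ab ((one_smul _ _).symm.trans ra)
  have C' := C.other hp hq (Ne.symm qn.2.2.2)
  have m : ρ ∈ St G ({p, q, z, τ • z} : Set Ω) :=
    mem_St4.2 ⟨rp, rq, rz, by rw [← mul_smul, c.eq, mul_smul, rz]⟩
  have := Fact.mk Nat.prime_three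
  have hF := E.ev C'.d4.ncard (k := ρ) (by_contra fun h => by
    have := (F.cop C'.d4.ncard m h).coprime_dvd_right E.three
    rw [orderOf_eq_prime r3 r1] at this
    simp at this) r1 (by
      rw [ncard_mod2 C.sq fun _ => smul_mem_Fx c.symm, show Fx Ω ρ ∩ Fx Ω τ = {p, q} from ?_,
        Set.ncard_pair C'.ab]
      refine Set.Subset.antisymm (fun s hs => ?_) (by rintro _ (rfl | rfl); exacts [⟨rp, hp⟩, ⟨rq, hq⟩])
      rcases hΦ s hs.2 with rfl | rfl | rfl | h | h
      exacts [absurd (hs.1.symm.trans ra) C.ab, absurd (hs.1.symm.trans rb).symm eb,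
        absurd (hs.1.symm.trans re) ea, .inl h, .inr h])
  obtain ⟨k, hk, k1⟩ := exists_not_mem_of_lt (S := {r | F.Rm τ x y a b r}) (T := {1})
    (by have := E.card; rw [Set.ncard_singleton]; omega)
  obtain ⟨j0, h0⟩ := F.exists_In E.toCf
  obtain ⟨e0, f1, f2, fa, fb⟩ := h0.third E.hn E.toCf
  obtain ⟨v, v1, v2, va, ve⟩ := E.move hk k1 hk k1 f1 fa fb e1 ea eb
  have vt : v * τ * v⁻¹ = τ := mul_inv_eq_iff_eq_mul.2 v1.eq
  have vk : ∀ s, s ∈ ({a, b, x, y} : Set Ω) → v • s ∈ ({a, b, x, y} : Set Ω) := fun s hs => by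
    rw [← E.fr hk k1] at hs ⊢
    exact smul_mem_Fx (mul_inv_eq_iff_eq_mul.1 v2) hs
  have xn : τ • x ≠ x := fun h => E.xy (h.symm.trans E.sw)
  have yn : τ • y ≠ y := fun h => E.xy (E.sw'.symm.trans h)
  have vb : v • b = b := by
    have := fix_of_comm v1 E.fb
    rcases vk b (by simp) with h | h | h | h
    exacts [absurd (MulAction.injective v (va.trans h.symm)) E.ab, h, absurd (h ▸ this) xn,
      absurd ((show v • b = y from h) ▸ this) yn]
  have C0 := E.toCf.conj v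
  rw [vt, va, vb] at C0
  have rx := fin_fix F h5 hW hΦ hp pn C0 (j := v * j0 * v⁻¹) ⟨h0.toIv.conj v, va ▸ conj_smul h0.fa,
    vb ▸ conj_smul h0.fb, conj_smul h0.fx, conj_smul h0.fy, (v1.mul_left h0.cm).mul_left v1.inv_left⟩ e1
    (ve ▸ conj_smul f2) ea eb c r3 ra rb re rp rq
  have x0 : τ • v • x ≠ v • x := fun h => C0.xy (h.symm.trans C0.sw)
  have k2 : v • x = x ∨ v • x = y := by
    rcases vk x (by simp) with h | h | h | h
    exacts [absurd (h ▸ E.fa) x0, absurd (h ▸ E.fb) x0, .inl h, .inr h]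
  have k3 : v • x = z ∨ τ • v • x = z := by
    rcases hF.le rx with h | h | h | h
    exacts [absurd (h ▸ hp) x0, absurd (h ▸ hq) x0, .inl h, .inr (swap_back C.sq (Eq.symm h))]
  rcases k2 with h | h <;> rw [h] at k3 <;> rcases k3 with h | h
  exacts [.inl h.symm, .inr (h.symm.trans E.sw), .inr h.symm, .inl (h.symm.trans E.sw')]

theorem EG.fin (E : EG F τ x y a b) (h5 : (Fx Ω τ).ncard = 5)
    (hW : ∀ w : G, Commute w τ → (∀ p : Ω, τ • p = p → w • p = p) → w = 1 ∨ w = τ) :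
    Nonempty (G ≃* Equiv.Perm (Fin 7)) := by
  have h : ∀ z, z ≠ x → z ≠ y → τ • z = z := fun z h1 h2 =>
    by_contra fun h => (E.out h5 hW h).elim h1 h2
  refine perm7 F.faith F.tr4 ?_ E.d4 E.sw E.sw' h
  rw [← Set.ncard_univ, show (Set.univ : Set Ω) = insert x (insert y (Fx Ω τ)) from
    (Set.eq_univ_of_forall fun z => by have := h z; simp only [Set.mem_insert_iff, mem_Fx]; tauto).symm,
    Set.ncard_insert_of_notMem (fun e => e.elim E.xy fun e => E.xy (e.symm.trans E.sw)),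
    Set.ncard_insert_of_notMem (s := Fx Ω τ) (fun e => E.xy (E.sw'.symm.trans e)), h5]

end CfsgH9.Q4C
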