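import Cfsg.Agent.H6.T3Def
import Cfsg.Agent.H5.NCTop
import Cfsg.Agent.H8.DihedralIso
import Cfsg.Prelude.Def_CaseTheorems

/-!
Groups of order prime to `5` with a Sylow `3`-subgroup of order three and small centraliser:
reduction to the simple case.
-/

set_option autoImplicit false
set_option linter.style.haveILetI false
set_option linter.unusedSectionVars false

namespace CfsgSZ

open Subgroup CfsgH5 CfsgH6 CfsgFT
open scoped commutatorElement MatrixGroups

universe u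

section proj

open OnePoint Equiv CfsgH2 CfsgH3

variable {p : ℕ} [Fact p.Prime] {Γ : Subgroup (Perm (OnePoint (ZMod p)))}

/-- a permutation normalising `PSL(2, p)` and fixing `0` and `∞` is a scaling -/
theorem t3_scal (h2 : (2 : ZMod p) ≠ 0)
    (nrm : ∀ g ∈ Γ, ∀ σ ∈ RR (ZMod p), g * σ * g⁻¹ ∈ RR (ZMod p)) {g : Perm (OnePoint (ZMod p))}
    (hg : g ∈ Γ) (h1 : g ∞ = ∞) (h0 : g (0 : ZMod p) = (0 : ZMod p)) :
    ∃ l : ZMod p, l ≠ 0 ∧ ∀ x : ZMod p, g x = (l * x : ZMod p) := by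
  have : ∀ x : ZMod p, ∃ y : ZMod p, (y : OnePoint (ZMod p)) = g x := fun x =>
    ne_infty_iff_exists.mp (by rw [← h1]; simp)
  choose f hf using this
  have f0 : f 0 = 0 := by simpa [h0] using hf 0
  have i1 : g.symm ∞ = ∞ := g.symm_apply_eq.mpr h1.symm
  have add : ∀ x c, f (x + c) = f x + f c := by
    intro x c
    obtain ⟨d, hd⟩ := rr_uni (p := p) (nrm g hg _ ⟨sl2T c, rfl⟩) (by simp [i1, h1, sl2T_infty])
      (by rw [conj_pow, tau_pow, tau_eq_one.mpr (by simp)]; simp)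
    have e : ∀ x, f (x + c) = f x + d := fun x => by
      have := congrArg (fun σ : Perm (OnePoint (ZMod p)) => σ (g x)) hd
      simp only [Perm.mul_apply, Perm.coe_inv, symm_apply_apply, sl2T_coe] at this
      rwa [← hf, ← hf, sl2T_coe, coe_eq_coe] at this
    rw [e, ← zero_add c, e, f0, zero_add]
  have f1 : f 1 ≠ 0 := fun e => by
    have := hf 1
    rw [e, ← h0] at this
    simp at this
  have lin : ∀ n : ℕ, f n = f 1 * n := fun n => by
    induction n with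
    | zero => simp [f0]
    | succ n ih => rw [Nat.cast_succ, add, ih]; ring
  refine ⟨f 1, f1, fun x => ?_⟩
  rw [← hf, ← ZMod.natCast_zmod_val x, lin]

theorem t3_equiv (h2 : (2 : ZMod p) ≠ 0) (le : RR (ZMod p) ≤ Γ)
    (nrm : ∀ g ∈ Γ, ∀ σ ∈ RR (ZMod p), g * σ * g⁻¹ ∈ RR (ZMod p)) :
    Nonempty (Γ ≃* PSL(2, ZMod p)) ∨
      (Nonempty (Γ ≃* GL (Fin 2) (ZMod p) ⧸ center (GL (Fin 2) (ZMod p))) ∧
        ∀ a : ZMod p, a ≠ 0 → ∃ k ∈ Γ, k ∞ = ∞ ∧ ∀ x : ZMod p, k x = (a * x : ZMod p)) := by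
  have mem : ∀ A : SL(2, ZMod p), sl2Perm (ZMod p) A ∈ Γ := fun A => le ⟨A, rfl⟩
  obtain ⟨γ, hγ⟩ : ∃ γ : ZMod p, ∀ a : ZMod p, a ≠ 0 → ∃ n : ℕ, a = γ ^ n := by
    obtain ⟨γ, hγ⟩ := IsCyclic.exists_monoid_generator (α := (ZMod p)ˣ)
    exact ⟨γ, fun a ha => (hγ (Units.mk0 a ha)).imp fun n e => by
      simpa using congrArg Units.val e.symm⟩
  by_cases c : ∀ g : Γ, g.1 ∞ = ∞ → g.1 (0 : ZMod p) = (0 : ZMod p) → ∃ a : ZMod p, a ≠ 0 ∧
      ∀ x : ZMod p, g.1 x = (a ^ 2 * x : ZMod p)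
  · exact Or.inl (psl2_recognition Γ.subtype Γ.subtype_injective
      (fun c => ⟨⟨_, mem (sl2T c)⟩, sl2T_infty c, sl2T_coe c⟩)
      ⟨⟨_, mem (sl2W (ZMod p))⟩, sl2W_infty, sl2W_zero, fun x => sl2W_coe⟩ c)
  push Not at c
  obtain ⟨g, h1, h0, c⟩ := c
  obtain ⟨l, l0, e⟩ := t3_scal h2 nrm g.2 h1 h0
  have D : ∀ a : ZMod p, a ≠ 0 → ∃ k ∈ Γ, k ∞ = ∞ ∧ ∀ x : ZMod p, k x = (a * x : ZMod p) := by
    intro a ha
    obtain ⟨n, rfl⟩ := hγ a ha
    obtain ⟨m, rfl⟩ := hγ l l0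
    rcases Nat.even_or_odd' n with ⟨k, rfl | rfl⟩
    · have : γ ^ k ≠ 0 := fun d => ha (by rw [two_mul, pow_add, d, zero_mul])
      exact ⟨_, mem (sl2D _ this), sl2D_infty _ _, fun x => by rw [sl2D_coe]; congr 1; ring⟩
    have γ0 : γ ≠ 0 := fun c => ha (by simp [c])
    rcases Nat.even_or_odd' m with ⟨j, rfl | rfl⟩
    · obtain ⟨x, hx⟩ := c (γ ^ j) (pow_ne_zero _ γ0)
      exact absurd (by rw [e]; congr 1; ring) hx
    · exact ⟨sl2Perm (ZMod p) (sl2D (γ ^ k / γ ^ j) (by simp [γ0])) * g, mul_mem (mem _) g.2,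
        by simp [h1, sl2D_infty], fun x => by
          rw [Perm.mul_apply, e, sl2D_coe]; congr 1; field_simp; ring⟩
  refine Or.inr ⟨pgl2_recognition Γ.subtype (fun a c ha => ?_) ?_ (fun g a b c => ?_), D⟩
  · obtain ⟨k, hk, k1, k2⟩ := D a ha
    exact ⟨⟨tau c * k, mul_mem (mem _) hk⟩, by simp [k1, sl2T_infty], by simp [k2, sl2T_coe]⟩
  · obtain ⟨k, hk, k1, k2⟩ := D (-1) (by simp)
    exact ⟨⟨k * ww (ZMod p), mul_mem hk (mem _)⟩, by simp [k2, sl2W_infty], by simp [k1, sl2W_zero],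
      fun x hx => by simp [k2, sl2W_coe hx]⟩
  · obtain ⟨l, -, e⟩ := t3_scal h2 nrm g.2 a b
    have l1 : l = 1 := by
      have := e 1
      rw [mul_one] at this
      exact (coe_eq_coe.mp (this.symm.trans c))
    exact Subtype.ext (perm_ext a fun x => by rw [e, l1, one_mul]; rfl)

/-- a scaling by `2` of the projective line over `ZMod 13` has order twelve -/
theorem t3_twelve {k : Perm (OnePoint (ZMod 13))}
    (e : ∀ x : ZMod 13, k x = (2 * x : ZMod 13)) : 3 ∣ orderOf k ∧ k ^ 6 ≠ 1 := by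
  have pw : ∀ n : ℕ, (k ^ n) (1 : ZMod 13) = (2 ^ n : ZMod 13) := fun n => by
    induction n with
    | zero => simp
    | succ n ih => rw [pow_succ', Perm.mul_apply, ih, e, pow_succ']
  refine ⟨?_, fun h => ?_⟩
  · have h := pw (orderOf k)
    rw [pow_orderOf_eq_one, Perm.one_apply, coe_eq_coe] at h
    have o : orderOf (2 : ZMod 13) = 12 := by
      rw [orderOf_eq_iff (by norm_num)]
      refine ⟨by decide, fun m h1 h2 => ?_⟩
      interval_cases m <;> decide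
    exact Dvd.dvd.trans (by decide) (o ▸ orderOf_dvd_of_pow_eq_one h.symm)
  · have := pw 6
    rw [h, Perm.one_apply, coe_eq_coe] at this
    exact absurd this (by decide)

end proj

variable {G : Type u} [Group G] [Finite G]

/-- the simple case of the classification, proved elsewhere -/
def SimpleCase : Prop :=
  ∀ (G : Type u) [Group G] [Finite G] [IsSimpleGroup G], Hy G → ¬ IsMulCommutative G →
    3 ∣ Nat.card G → (∀ H : Subgroup G, H ≠ ⊤ → Con H) →
    Nonempty (G ≃* L7) ∨ Nonempty (G ≃* L13)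

/-- the possible quotients by the `3'`-core -/
def QT (L : Type u) [Group L] : Prop :=
  Nat.card L = 1 ∨ Nat.card L = 3 ∨ Nonempty (L ≃* DihedralGroup 3) ∨ KT L

/-- the hypothesis passes to sections by `3'`-subgroups -/
theorem Hy.img (h : Hy G) {M : Subgroup G} {L : Type u} [Group L] [Finite L] (f : M →* L)
    (hf : Function.Surjective f) (hk : ¬ 3 ∣ Nat.card (pre f ⊥)) : Hy L := by
  have hd : Nat.card L ∣ Nat.card G :=
    (card_dvd_of_surjective f hf).trans (card_subgroup_dvd_card M)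
  have key : ∀ y : L, orderOf y = 3 → ∃ x : G, orderOf x = 3 ∧ C1 y = CfsgH5.img f (M ⊓ C1 x) := by
    intro y hy
    obtain ⟨g, rfl⟩ := hf y
    have e : f (ppart {3} g) = f g := by
      rw [map_ppart, ppart_of_piE]
      rw [PiE, hy]; exact (piN_prime Nat.prime_three).mpr rfl
    obtain ⟨k, hk'⟩ := (piN_single Nat.prime_three (orderOf_pos _).ne').mp (piE_ppart {3} g)
    generalize ppart {3} g = z at e hk'
    have d3 : 3 ∣ orderOf z := by rw [← hy, ← e]; exact orderOf_map_dvd f _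
    have o3 : orderOf (z : G) = 3 := by
      rw [orderOf_coe]
      have n9 : ¬ 9 ∣ orderOf z := fun c => h.n9 (c.trans
        ((_root_.orderOf_dvd_natCard _).trans (card_subgroup_dvd_card M)))
      rw [hk'] at d3 n9 ⊢
      match k, d3, n9 with
      | 0, d3, _ => exact absurd d3 (by decide)
      | 1, _, _ => rfl
      | k + 2, _, n9 => exact absurd (Dvd.intro_left (3 ^ k) (by ring)) n9
    refine ⟨_, o3, ?_⟩
    have := img_inf_C_of_coprime f (H := M) (A := zpowers (z : G))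
      (zpowers_le.mpr z.2) le_rfl (Nrm.of_le (zpowers_le.mpr z.2))
      (cop_X o3 fun c => hk (c.trans (card_dvd_of_le' inf_le_right))) (solv_X _ _)
    rw [C_zpowers, img_zpowers f z.2, C_zpowers, img_self,
      MonoidHom.range_eq_top.mpr hf, top_inf_eq] at this
    rw [this, ← e]
  refine ⟨fun c => h.n5 (c.trans hd), fun c => h.n9 (c.trans hd), fun y hy => ?_,
    fun y hy a ha => ?_, fun y hy => ?_⟩
  · obtain ⟨x, hx, e⟩ := key y hy
    rw [e]; exact ((h.ab x hx).mono inf_le_right).img f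
  · obtain ⟨x, hx, e⟩ := key y hy
    rw [e] at ha
    obtain ⟨g, hg, hg', rfl⟩ := mem_img'.mp ha
    rw [← map_pow, show (⟨g, hg'⟩ : M) ^ 6 = 1 from Subtype.ext (h.ex x hx g hg.2), map_one]
  · obtain ⟨x, hx, e⟩ := key y hy
    rw [e]
    exact (Nat.le_of_dvd (card_pos _) ((card_img_dvd f _).trans
      (card_dvd_of_le' inf_le_right))).trans (h.le x hx)

theorem Hy.sub (h : Hy G) (M : Subgroup G) : Hy M :=
  h.img (MonoidHom.id M) Function.surjective_id (by
    rw [ker_eq_bot_of_injective Function.injective_id, card_bot]; decide)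

theorem Opc_top_eq_bot {M : Subgroup G} {L : Type u} [Group L] [Finite L] (f : M →* L)
    (hf : Function.Surjective f) (hk : pre f ⊥ = Opc 3 M) : Opc 3 (⊤ : Subgroup L) = ⊥ := by
  have := img_Opi (π := {3}ᶜ) (f := f) (M := M) le_rfl
    ((hk ▸ piG_Opc 3 M : PiG {3}ᶜ (pre f ⊥)).of_le inf_le_right)
  rw [img_self, MonoidHom.range_eq_top.mpr hf] at this
  rw [Opc, ← this, ← Opc, ← hk, img_ker]

theorem card_D3 {L : Type u} [Group L] (h : Nonempty (L ≃* DihedralGroup 3)) : Nat.card L = 6 := by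
  obtain ⟨e⟩ := h
  rw [Nat.card_congr e.toEquiv, DihedralGroup.nat_card]

theorem con_of_QT (h : Hy G) (H : Subgroup G)
    (ih : ∀ (L : Type u) [Group L] [Finite L], Nat.card L ≤ Nat.card H → Hy L →
      Opc 3 (⊤ : Subgroup L) = ⊥ → QT L) : Con H := by
  haveI : ((Opc 3 H).subgroupOf H).Normal :=
    normal_subgroupOf_of_le_normalizer (nrm_Opc 3 H).le_N
  let f := QuotientGroup.mk' ((Opc 3 H).subgroupOf H)
  have hf : Function.Surjective f := QuotientGroup.mk'_surjective _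
  have hk : pre f ⊥ = Opc 3 H := by
    rw [pre, MonoidHom.comap_bot, QuotientGroup.ker_mk', subgroupOf_map_subtype,
      inf_eq_left.mpr (Opc_le 3 H)]
  rcases ih _ (Nat.card_le_card_of_surjective f hf)
    (h.img f hf (by rw [hk]; exact not_dvd_card_Opc Nat.prime_three H)) (Opc_top_eq_bot f hf hk) with e | e | e | e
  · exact Or.inl e
  · exact Or.inr (Or.inl e)
  · exact Or.inr (Or.inr (Or.inl (card_D3 e)))
  · exact Or.inr (Or.inr (Or.inr ⟨_, inferInstance, inferInstance, f, hf, hk, e⟩))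

/-- the case of a normal subgroup of order three -/
theorem qt_of_normal (h : Hy G) (hO : Opc 3 (⊤ : Subgroup G) = ⊥) {x : G} (hx : orderOf x = 3)
    (hn : Nrm ⊤ (zpowers x)) : QT G := by
  by_cases hi : ∀ g ∈ (⊤ : Subgroup G), g * x * g⁻¹ ≠ x⁻¹
  · have := h.index3 hx (mem_top x) hi
    rw [hO, relIndex_bot_left, card_top] at this
    exact Or.inr (Or.inl this)
  push Not at hi
  obtain ⟨t, -, ht⟩ := hi
  have hV : Vx x = ⊥ := by
    rw [eq_bot_iff, ← hO]
    refine le_Opi le_top ((charIn_Op Nat.prime_two _).nrm (C_zpowers x ▸ hn.C))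
      ((piG_compl_single Nat.prime_three).mpr (not3_of_two (isPGroup_V x)))
  have hC : C1 x = zpowers x := by rw [h.C1_eq hx, hV, sup_bot_eq]
  have tx : t ∉ zpowers x := fun c => inv_ne3 hx (by
    rw [← ht]; exact mem_C1_iff_conj.mp (hC ▸ c))
  have t2 : t ^ 2 = 1 := by
    have m : t ^ 2 ∈ zpowers x := by
      rw [← hC, mem_C1_iff_conj, pow_two, show t * t * x * (t * t)⁻¹ = t * (t * x * t⁻¹) * t⁻¹ by
        group, ht, show t * x⁻¹ * t⁻¹ = (t * x * t⁻¹)⁻¹ by group, ht, inv_inv]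
    rcases (mem_X hx).mp m with e | e | e
    · exact e
    · exact absurd (by rw [← ht, ← e]; group) (inv_ne3 hx)
    · refine absurd ?_ (inv_ne3 hx)
      have : t * x⁻¹ * t⁻¹ = x⁻¹ := by rw [← e]; group
      rw [show t * x⁻¹ * t⁻¹ = (t * x * t⁻¹)⁻¹ by group, ht, inv_inv] at this
      exact this.symm
  refine Or.inr (Or.inr (Or.inl (CfsgH8.nonempty_equiv_dihedral hx t2 ht tx ?_)))
  refine index_eq_two_iff.mpr ⟨t, fun g => ?_⟩
  rw [← hC, mem_C1_iff_conj, mem_C1_iff_conj, show g * t * x * (g * t)⁻¹ =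
    g * (t * x * t⁻¹) * g⁻¹ by group, ht, show g * x⁻¹ * g⁻¹ = (g * x * g⁻¹)⁻¹ by group]
  rcases (mem_NX hx).mp (hn.le_N (mem_top g)) with e | e <;> rw [e]
  · exact Or.inr ⟨rfl, inv_ne3 hx⟩
  · exact Or.inl ⟨inv_inv x, inv_ne3 hx⟩

/-- the case of a normal subgroup `PSL(2, 7)` or `PSL(2, 13)` -/
theorem qt_of_psl (h : Hy G) (T : Subgroup G) [T.Normal]
    (hC : ∀ c, (∀ t ∈ T, c * t = t * c) → c = 1)
    (hT : Nonempty (T ≃* L7) ∨ Nonempty (T ≃* L13)) : KT G := by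
  rcases hT with ⟨⟨e⟩⟩ | ⟨⟨e⟩⟩
  · obtain ⟨ψ, inj, le, nrm⟩ := exists_ext T e hC
    let i := MonoidHom.ofInjective inj
    rcases t3_equiv (Γ := ψ.range) (by decide) le (by rintro _ ⟨g, rfl⟩; exact nrm g) with
      ⟨⟨e'⟩⟩ | ⟨⟨e'⟩, -⟩
    · exact Or.inl ⟨i.trans e'⟩
    · refine Or.inr (Or.inr ⟨⟨i.trans e'⟩, T, ?_⟩)
      have := T.index_mul_card
      rw [Nat.card_congr e.toEquiv, kf_L7.card, Nat.card_congr (i.trans e').toEquiv, card_P7] at this
      omega
  · obtain ⟨ψ, inj, le, nrm⟩ := exists_ext T e hC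
    let i := MonoidHom.ofInjective inj
    rcases t3_equiv (Γ := ψ.range) (by decide) le (by rintro _ ⟨g, rfl⟩; exact nrm g) with
      ⟨⟨e'⟩⟩ | ⟨-, D⟩
    · exact Or.inr (Or.inl ⟨i.trans e'⟩)
    · obtain ⟨_, ⟨g, rfl⟩, -, e⟩ := D 2 (by decide)
      obtain ⟨h1, h2⟩ := t3_twelve e
      rw [orderOf_injective ψ inj] at h1
      exact absurd (by rw [← map_pow, h.pow6 h1, map_one]) h2

theorem qt_aux (hs : SimpleCase.{u}) (n : ℕ) : ∀ (G : Type u) [Group G] [Finite G],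
    Nat.card G ≤ n → Hy G → Opc 3 (⊤ : Subgroup G) = ⊥ → QT G := by
  induction n with
  | zero => intro G _ _ h; exact absurd h (not_le.mpr Nat.card_pos)
  | succ n ih =>
  intro G _ _ hn h hO
  by_cases h3 : 3 ∣ Nat.card G
  swap
  · rw [(Opc_eq_self Nat.prime_three).mpr (by rwa [card_top])] at hO
    exact Or.inl (by rw [← card_top, hO, card_bot])
  haveI := Fact.mk Nat.prime_three
  obtain ⟨x, hx⟩ := exists_prime_orderOf_dvd_card' 3 h3
  haveI : Nontrivial G := ⟨⟨x, 1, ne_one3 hx⟩⟩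
  have mem : ∀ K : Subgroup G, K.Normal → K ≠ ⊥ → ∀ y : G, orderOf y = 3 → y ∈ K :=
    fun K h1 h2 y hy => (h.mem_or_le hy (mem_top y) le_top (nrm_top_iff.mpr h1)).resolve_right
      fun c => h2 (by rwa [hO, le_bot_iff] at c)
  obtain ⟨N, h1, h2, h4⟩ := exists_minimal_normal (G := G)
  by_cases ab : IsMulCommutative N
  · refine qt_of_normal h hO hx fun g _ y hy => ?_
    have hN := ab_iff_isMulCommutative.mpr ab
    have hz := zpowers_le.mpr (mem N h1 h2 x hx)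
    refine (h.syl3 hx (mem N h1 h2 x hx)).le_of_nrm (zpowers_le.mpr (h1.conj_mem _ (hz hy) g))
      ?_ (nrm_of_le_C ?_) (mem_zpowers _)
    · rw [← cj_zpowers]
      exact isPGroup_cj ((isPGroup_X hx).to_le (zpowers_le.mpr hy)) g
    · exact hz.trans (hN.trans (C_anti (zpowers_le.mpr (h1.conj_mem _ (hz hy) g))))
  obtain ⟨T, hT⟩ := exists_isSimpleFactor N h1 h2 h4 ab
  haveI := hT.simple
  have T3 : 3 ∣ Nat.card T := by
    by_contra c
    exact hT.not_comm ⟨⟨IsSimpleGroup.comm_iff_isSolvable.mpr (h.solv c)⟩⟩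
  obtain ⟨y, hy⟩ := exists_prime_orderOf_dvd_card' 3 T3
  rw [← orderOf_coe] at hy
  have nc : ∀ z : G, orderOf z = 3 → ¬ T ≤ C1 z := fun z hz c =>
    hT.not_comm (ab_iff_isMulCommutative.mp ((h.ab z hz).mono c))
  haveI : T.Normal := ⟨fun a ha g => (hT.dich g).elim (fun c => c a ha) fun c =>
    absurd (fun s hs => mem_C1.mpr (c y y.2 s hs).eq.symm) (nc _ (by rw [orderOf_conj', hy]))⟩
  have hC : ∀ c, (∀ t ∈ T, c * t = t * c) → c = 1 := by
    intro c hc
    by_contra c1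
    refine nc x hx (le_C1_iff.mpr (mem (C T) inferInstance (fun e => c1 ?_) x hx))
    exact mem_bot.mp (e ▸ (mem_C.mpr fun t ht => (hc t ht).symm : c ∈ C T))
  refine Or.inr (Or.inr (Or.inr (qt_of_psl h T hC (hs T (h.sub T) hT.not_comm T3 fun H hH => ?_))))
  refine con_of_QT (h.sub T) H fun L _ _ hL => ih L (hL.trans (Nat.lt_succ_iff.mp (lt_of_lt_of_le ?_
    ((Nat.le_of_dvd Nat.card_pos (card_subgroup_dvd_card T)).trans hn))))
  rw [← card_top (G := T)]
  exact CfsgH6.card_lt_of_lt (lt_top_iff_ne_top.mpr hH)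

theorem qt_of_hy (hs : SimpleCase.{u}) (h : Hy G) (hO : Opc 3 (⊤ : Subgroup G) = ⊥) : QT G :=
  qt_aux hs _ G le_rfl h hO

theorem con_all (hs : SimpleCase.{u}) (h : Hy G) (H : Subgroup G) : Con H :=
  con_of_QT h H fun _ _ _ _ => qt_of_hy hs

theorem con_top (hs : SimpleCase.{u}) (h : Hy G) : Con (⊤ : Subgroup G) := con_all hs h ⊤

theorem pPrimeCore_eq : Cfsg.pPrimeCore 3 G = Opc 3 (⊤ : Subgroup G) := by
  rw [Cfsg.pPrimeCore, Opc, Opi]
  congr 1
  ext K
  simp only [Set.mem_setOf_eq, le_top, true_and, nrm_top_iff, PiG,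
    piN_compl_single' Nat.prime_three]

theorem hy_of (h5 : ¬ 5 ∣ Nat.card G) (h9 : ¬ 9 ∣ Nat.card G) {x : G} (hx : orderOf x = 3)
    (hC : Nat.card (C1 x) = 12) (hab : ∀ a ∈ C1 x, ∀ b ∈ C1 x, a * b = b * a)
    (hex : ∀ a ∈ C1 x, a ^ 6 = 1) : Hy G := by
  have key : ∀ y : G, orderOf y = 3 → ∃ g, C1 y = cj g (C1 x) := fun y hy => by
    obtain ⟨g, -, e⟩ := exists_conj_zpowers Nat.prime_three (mem_top y) (mem_top x) hy hx
      (by rwa [card_top])
    exact ⟨g, by rw [cj_C1, C1_eq_of_zpowers e]⟩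
  refine ⟨h5, h9, fun y hy => ?_, fun y hy a ha => ?_, fun y hy => ?_⟩ <;>
    obtain ⟨g, e⟩ := key y hy
  · rw [e]; exact (ab_iff.mpr hab).cjj g
  · rw [e] at ha
    obtain ⟨b, hb, rfl⟩ := mem_cj'.mp ha
    rw [conj_pow, hex b hb, mul_one, mul_inv_cancel]
  · rw [e, card_cj, hC]

theorem solvable_D3 {L : Type u} [Group L] [Finite L] (h : Nonempty (L ≃* DihedralGroup 3)) :
    Group.IsSolvable L := by
  haveI : IsZGroup L := IsZGroup.of_squarefree (by rw [card_D3 h]; decide +kernel)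
  infer_instance

theorem solvable_card3 {L : Type u} [Group L] [Finite L] (h : Nat.card L = 3) :
    Group.IsSolvable L := by
  haveI : IsZGroup L := IsZGroup.of_squarefree (by rw [h]; exact Nat.prime_three.squarefree)
  infer_instance

theorem s3714 (hs : SimpleCase.{u}) (h5 : ¬ 5 ∣ Nat.card G) (h9 : ¬ 9 ∣ Nat.card G) (x : G)
    (hx : orderOf x = 3)
    (hC : Nat.card ↥(Subgroup.centralizer ({x} : Set G)) = 12)
    (hCab : ∀ a ∈ Subgroup.centralizer ({x} : Set G), ∀ b ∈ Subgroup.centralizer ({x} : Set G),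
      a * b = b * a)
    (hCexp : ∀ a ∈ Subgroup.centralizer ({x} : Set G), a ^ 6 = 1) :
    ((Nat.card (G ⧸ Cfsg.pPrimeCore 3 G) = 3 ∨
      Nonempty (G ⧸ Cfsg.pPrimeCore 3 G ≃* DihedralGroup 3)) ∧ Group.IsSolvable G) ∨
    (Nonempty (G ⧸ Cfsg.pPrimeCore 3 G ≃* L7) ∨ Nonempty (G ⧸ Cfsg.pPrimeCore 3 G ≃* L13)) ∨
    ((Nonempty (G ⧸ Cfsg.pPrimeCore 3 G ≃* P7) ∨
      Nonempty (G ⧸ Cfsg.pPrimeCore 3 G ≃*
        (GL (Fin 2) (ZMod 13) ⧸ Subgroup.center (GL (Fin 2) (ZMod 13))))) ∧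
      ∃ K : Subgroup G, K.Normal ∧ K.index = 2 ∧ K ⊔ Subgroup.centralizer ({x} : Set G) = ⊤) := by
  have h := hy_of h5 h9 hx hC hCab hCexp
  let q := QuotientGroup.mk' (Cfsg.pPrimeCore 3 G)
  have hq : Function.Surjective q := QuotientGroup.mk'_surjective _
  let f := q.comp (⊤ : Subgroup G).subtype
  have hf : Function.Surjective f := fun y => by
    obtain ⟨g, rfl⟩ := hq y; exact ⟨⟨g, mem_top g⟩, rfl⟩
  have hk : pre f ⊥ = Opc 3 ⊤ := by
    ext g
    rw [mem_pre' (mem_top g), mem_bot, ← pPrimeCore_eq]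
    exact QuotientGroup.eq_one_iff g
  have n3 := not_dvd_card_Opc Nat.prime_three (⊤ : Subgroup G)
  have sol : Group.IsSolvable (G ⧸ Cfsg.pPrimeCore 3 G) → Group.IsSolvable G := fun s => by
    haveI : Group.IsSolvable (Cfsg.pPrimeCore 3 G) := by rw [pPrimeCore_eq]; exact h.solvO ⊤
    exact solvable_of_ker_le_range (Cfsg.pPrimeCore 3 G).subtype q (by simp [q])
  rcases qt_of_hy hs (h.img f hf (by rwa [hk])) (Opc_top_eq_bot f hf hk) with
    e | e | e | e | e | ⟨⟨e⟩, K, hK⟩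
  · refine absurd ?_ n3
    rw [← pPrimeCore_eq, index_eq_one.mp e, card_top, ← hx]
    exact orderOf_dvd_natCard x
  · exact Or.inl ⟨Or.inl e, sol (solvable_card3 e)⟩
  · exact Or.inl ⟨Or.inr e, sol (solvable_D3 e)⟩
  · exact Or.inr (Or.inl (Or.inl e))
  · exact Or.inr (Or.inl (Or.inr e))
  have i2 : (K.comap q).index = 2 := by rw [index_comap_of_surjective _ hq, hK]
  have hn : (K.comap q).Normal := normal_of_index_eq_two i2
  refine Or.inr (Or.inr ⟨Or.inl ⟨e⟩, K.comap q, hn, i2, ?_⟩)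
  have OK : Opc 3 ⊤ ≤ K.comap q := fun g hg => by
    rw [← pPrimeCore_eq] at hg
    rw [mem_comap, show q g = 1 from (QuotientGroup.eq_one_iff g).mpr hg]; exact one_mem _
  generalize K.comap q = K' at i2 hn OK
  have xK : x ∈ K' := by
    have := mul_mem (sq_mem_of_index_two i2 x) (sq_mem_of_index_two i2 x)
    rwa [pow_two, ← mul_assoc, cube_eq hx, one_mul] at this
  obtain ⟨t, tK, ht⟩ : ∃ t ∈ K', t * x * t⁻¹ = x⁻¹ := by
    by_contra c
    push Not at c
    have := h.index3 hx xK c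
    rw [Opc_of_normalIn (normalIn_top.mpr hn), inf_eq_left.mpr OK] at this
    have e2 := relIndex_mul_index OK
    rw [this, i2, ← pPrimeCore_eq, index_eq_card, Nat.card_congr e.toEquiv, card_P7] at e2
    omega
  rw [eq_top_iff, ← frattini_arg Nat.prime_three (h.syl3 hx xK) (normalIn_top.mpr hn)]
  refine sup_le le_sup_left fun g hg => ?_
  rcases (mem_NX hx).mp hg.2 with a | a
  · exact mem_sup_right (mem_C1_iff_conj.mpr a)
  · have : t⁻¹ * g ∈ C1 x := by
      rw [mem_C1_iff_conj, show t⁻¹ * g * x * (t⁻¹ * g)⁻¹ = t⁻¹ * (g * x * g⁻¹) * t by group, a,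
        ← ht]; group
    simpa using mul_mem_sup tK this

theorem s3715 (hs : SimpleCase.{u}) [IsSimpleGroup G] (hG : ¬ IsMulCommutative G)
    (h5 : ¬ 5 ∣ Nat.card G) (x : G) (hx : orderOf x = 3)
    (hC : Nat.card ↥(Subgroup.centralizer ({x} : Set G)) = 12)
    (hCab : ∀ a ∈ Subgroup.centralizer ({x} : Set G), ∀ b ∈ Subgroup.centralizer ({x} : Set G),
      a * b = b * a)
    (hCexp : ∀ a ∈ Subgroup.centralizer ({x} : Set G), a ^ 6 = 1) : False := by
  haveI := Fact.mk Nat.prime_three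
  have h9 : ¬ 9 ∣ Nat.card G := by
    obtain ⟨P, h1, h2⟩ := exists_sylIn_ge (le_top (a := zpowers x)) (isPGroup_X hx)
    have S : SylIn 3 (zpowers x) (C1 x) :=
      sylIn_zpowers Nat.prime_three (self_mem_C1 x) hx (by rw [hC]; decide)
    have zc : Z P ≤ C1 x := (Z_le_C P).trans (C_le_C1 (h1 (mem_zpowers x)))
    have zx : Z P ≤ zpowers x := S.le_of_nrm zc (h2.isPGroup.to_le (Z_le P))
      (nrm_of_le_C (h1.trans (le_C_Z P)))
    obtain ⟨z, hz, z1⟩ := (Z P).bot_or_exists_ne_one.resolve_left (Z_ne_bot_of_nilpotent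
      (nilpotent_of_isPGroup Nat.prime_three h2.isPGroup) fun e =>
        ne_one3 hx (mem_bot.mp (e ▸ h1 (mem_zpowers x))))
    have pc : P ≤ C1 x := by
      rw [← C1_of_mem_X hx (zx hz) z1]; exact (le_C_Z P).trans (C_le_C1 hz)
    rw [S.eq_of_le pc h2.isPGroup h1] at h2
    intro c
    refine h2.not_dvd_relIndex (Nat.dvd_of_mul_dvd_mul_left (k := 3) (by decide) ?_)
    rwa [← card_top, ← card_mul_relIndex h2.le, card_X hx] at c
  have h := hy_of h5 h9 hx hC hCab hCexp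
  have ns : ¬ Group.IsSolvable G := fun s => hG ⟨⟨IsSimpleGroup.comm_iff_isSolvable.mpr s⟩⟩
  have hO : Opc 3 (⊤ : Subgroup G) = ⊥ :=
    (nrm_top_iff.mp (nrm_Opc 3 ⊤)).eq_bot_or_eq_top.resolve_right fun e =>
      (Opc_eq_self Nat.prime_three).mp e (by rw [card_top, ← hx]; exact orderOf_dvd_natCard x)
  rcases qt_of_hy hs h hO with e | e | e | e
  · have := orderOf_dvd_natCard x
    rw [hx, e] at this
    exact absurd this (by decide)
  · exact ns (solvable_card3 e)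
  · exact ns (solvable_D3 e)
  · obtain ⟨n, c, p, k⟩ := e.kf
    have := k.c3 x hx
    rw [hC] at this
    rcases k.cases with ⟨-, e, -⟩ | ⟨-, e, -⟩ | ⟨-, e, -⟩ <;> omega

end CfsgSZ
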